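import Mathlib
import Cfsg.Agent.H85.McLDefs

/-!
# S5075, piece RAD: the radical lemma `V = [V, G] ⊕ C_V(G)` for groups with opposite roots
-/

set_option autoImplicit false

namespace Cfsg.Agent.H14.McL

open Module Cfsg.Agent.H85.McL

variable {p : ℕ} [Fact p.Prime] {V : Type*} [AddCommGroup V] [Module (ZMod p) V]

theorem sum_proj_left (ψ : Dual (ZMod p) V) (α : ZMod p) (a₁ : V)
    (t : Multiset (V × Dual (ZMod p) V)) :
    (t.map (fun x => x.1 - (ψ x.1 / α) • a₁)).sum =
      (t.map Prod.fst).sum - (ψ (t.map Prod.fst).sum / α) • a₁ := by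
  induction t using Multiset.induction_on with
  | empty => simp
  | cons x t ih =>
    rw [Multiset.map_cons, Multiset.sum_cons, ih, Multiset.map_cons, Multiset.sum_cons, map_add,
      add_div, add_smul]
    abel

theorem sum_proj_right (b : V) (β : ZMod p) (φ₁ : Dual (ZMod p) V)
    (t : Multiset (V × Dual (ZMod p) V)) :
    (t.map (fun x => x.2 - (x.2 b / β) • φ₁)).sum =
      (t.map Prod.snd).sum - ((t.map Prod.snd).sum b / β) • φ₁ := by
  induction t using Multiset.induction_on with
  | empty => simp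
  | cons x t ih =>
    rw [Multiset.map_cons, Multiset.sum_cons, ih, Multiset.map_cons, Multiset.sum_cons,
      LinearMap.add_apply, add_div, add_smul]
    abel

/-- Elements of `centers G` are sums of centers of roots. -/
theorem centers_sum {G : Subgroup (V ≃ₗ[ZMod p] V)} {r : V} (hr : r ∈ centers G) :
    ∃ s : Multiset (V × Dual (ZMod p) V), (∀ x ∈ s, x.1 = 0 ∨ Root G x.1 x.2) ∧
      (s.map Prod.fst).sum = r := by
  unfold centers at hr
  induction hr using Submodule.span_induction with
  | mem a ha =>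
    obtain ⟨φ, hφ⟩ := ha
    refine ⟨{(a, φ)}, ?_, by simp⟩
    intro x hx
    rw [Multiset.mem_singleton] at hx
    subst hx
    exact Or.inr hφ
  | zero => exact ⟨0, by simp, by simp⟩
  | add x y _ _ hx hy =>
    obtain ⟨s₁, h₁, rfl⟩ := hx
    obtain ⟨s₂, h₂, rfl⟩ := hy
    refine ⟨s₁ + s₂, ?_, by rw [Multiset.map_add, Multiset.sum_add]⟩
    intro z hz
    rcases Multiset.mem_add.mp hz with h | h
    · exact h₁ z h
    · exact h₂ z h
  | smul k x _ hx =>
    obtain ⟨s, hs, rfl⟩ := hx
    refine ⟨s.map (fun z => (k • z.1, z.2)), ?_, ?_⟩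
    · intro z hz
      obtain ⟨w, hw, rfl⟩ := Multiset.mem_map.mp hz
      rcases hs w hw with h | h
      · left; show k • w.1 = 0; rw [h, smul_zero]
      · by_cases hk : k = 0
        · left; show k • w.1 = 0; rw [hk, zero_smul]
        · right; exact h.smul_left hk
    · rw [Multiset.map_map, Multiset.smul_sum, Multiset.map_map]
      rfl

/-- Elements of `axes G` are sums of axes of roots. -/
theorem axes_sum {G : Subgroup (V ≃ₗ[ZMod p] V)} {f : Dual (ZMod p) V} (hf : f ∈ axes G) :
    ∃ s : Multiset (V × Dual (ZMod p) V), (∀ x ∈ s, x.2 = 0 ∨ Root G x.1 x.2) ∧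
      (s.map Prod.snd).sum = f := by
  unfold axes at hf
  induction hf using Submodule.span_induction with
  | mem φ hφ =>
    obtain ⟨a, ha⟩ := hφ
    refine ⟨{(a, φ)}, ?_, by simp⟩
    intro x hx
    rw [Multiset.mem_singleton] at hx
    subst hx
    exact Or.inr ha
  | zero => exact ⟨0, by simp, by simp⟩
  | add x y _ _ hx hy =>
    obtain ⟨s₁, h₁, rfl⟩ := hx
    obtain ⟨s₂, h₂, rfl⟩ := hy
    refine ⟨s₁ + s₂, ?_, by rw [Multiset.map_add, Multiset.sum_add]⟩
    intro z hz
    rcases Multiset.mem_add.mp hz with h | h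
    · exact h₁ z h
    · exact h₂ z h
  | smul k x _ hx =>
    obtain ⟨s, hs, rfl⟩ := hx
    refine ⟨s.map (fun z => (z.1, k • z.2)), ?_, ?_⟩
    · intro z hz
      obtain ⟨w, hw, rfl⟩ := Multiset.mem_map.mp hz
      rcases hs w hw with h | h
      · left; show k • w.2 = 0; rw [h, smul_zero]
      · by_cases hk : k = 0
        · left; show k • w.2 = 0; rw [hk, zero_smul]
        · right; exact h.smul_right hk
    · rw [Multiset.map_map, Multiset.smul_sum, Multiset.map_map]
      rfl

theorem rad_left_aux (hp2 : p ≠ 2) {G : Subgroup (V ≃ₗ[ZMod p] V)} (hopp : HasOpp G) :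
    ∀ (n : ℕ) (s : Multiset (V × Dual (ZMod p) V)), Multiset.card s ≤ n →
      (∀ x ∈ s, x.1 = 0 ∨ Root G x.1 x.2) → ∀ r : V, r = (s.map Prod.fst).sum →
      (∀ b ψ, Root G b ψ → ψ r = 0) → r = 0 := by
  intro n
  induction n with
  | zero =>
    intro s hs _ r hr _
    have h1 : s = 0 := Multiset.card_eq_zero.mp (Nat.le_zero.mp hs)
    rw [hr, h1]; simp
  | succ n ih =>
    intro s hs hroot r hr h0
    by_cases hs0 : s = 0
    · rw [hr, hs0]; simp
    obtain ⟨x₁, hx₁⟩ := Multiset.exists_mem_of_ne_zero hs0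
    obtain ⟨t, rfl⟩ := Multiset.exists_cons_of_mem hx₁
    rw [Multiset.card_cons] at hs
    have ht : Multiset.card t ≤ n := Nat.le_of_succ_le_succ hs
    have hroot_t : ∀ x ∈ t, x.1 = 0 ∨ Root G x.1 x.2 :=
      fun x hx => hroot x (Multiset.mem_cons_of_mem hx)
    obtain ⟨a₁, φ₁⟩ := x₁
    have hr' : r = a₁ + (t.map Prod.fst).sum := by
      rw [hr, Multiset.map_cons, Multiset.sum_cons]
    rcases hroot (a₁, φ₁) (Multiset.mem_cons_self _ _) with ha | h1
    · have ha' : a₁ = 0 := ha
      rw [ha', zero_add] at hr'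
      exact ih t ht hroot_t r hr' h0
    · have h1' : Root G a₁ φ₁ := h1
      by_cases hc : ∃ x ∈ t, Root G x.1 x.2 ∧ (x.2 a₁ ≠ 0 ∨ φ₁ x.1 ≠ 0)
      · obtain ⟨x, hx, hxr, hx2⟩ := hc
        obtain ⟨t', rfl⟩ := Multiset.exists_cons_of_mem hx
        obtain ⟨a₂, φ₂⟩ := x
        have hxr' : Root G a₂ φ₂ := hxr
        have hcomb : ∃ χ, Root G (a₁ + a₂) χ := by
          rcases hx2 with h | h
          · have h' : φ₂ a₁ ≠ 0 := h
            have hr2 : Root G ((φ₂ a₁)⁻¹ • a₂) φ₂ := hxr'.smul_left (inv_ne_zero h')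
            have h3 := h1'.conj hr2
            have e : a₁ + φ₂ a₁ • (φ₂ a₁)⁻¹ • a₂ = a₁ + a₂ := by
              rw [smul_smul, mul_inv_cancel₀ h', one_smul]
            rw [e] at h3
            exact ⟨_, h3⟩
          · have h' : φ₁ a₂ ≠ 0 := h
            have hr1 : Root G ((φ₁ a₂)⁻¹ • a₁) φ₁ := h1'.smul_left (inv_ne_zero h')
            have h3 := hxr'.conj hr1
            have e : a₂ + φ₁ a₂ • (φ₁ a₂)⁻¹ • a₁ = a₁ + a₂ := by
              rw [smul_smul, mul_inv_cancel₀ h', one_smul, add_comm]
            rw [e] at h3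
            exact ⟨_, h3⟩
        obtain ⟨χ, hχ⟩ := hcomb
        rw [Multiset.card_cons] at ht
        refine ih ((a₁ + a₂, χ) ::ₘ t') ?_ ?_ r ?_ h0
        · rw [Multiset.card_cons]; exact ht
        · intro z hz
          rcases Multiset.mem_cons.mp hz with h | h
          · rw [h]; exact Or.inr hχ
          · exact hroot_t z (Multiset.mem_cons_of_mem h)
        · rw [hr', Multiset.map_cons, Multiset.sum_cons, Multiset.map_cons, Multiset.sum_cons,
            add_assoc]
      · have hc' : ∀ x ∈ t, Root G x.1 x.2 → x.2 a₁ = 0 ∧ φ₁ x.1 = 0 := by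
          intro x hx hxr
          by_contra hcon
          apply hc
          refine ⟨x, hx, hxr, ?_⟩
          by_contra hcon2
          apply hcon
          constructor
          · by_contra h; exact hcon2 (Or.inl h)
          · by_contra h; exact hcon2 (Or.inr h)
        obtain ⟨b, ψ, hbψ, hψa, hφb⟩ := hopp a₁ φ₁ h1'
        have hex : ∀ x : V × Dual (ZMod p) V, ∃ χ : Dual (ZMod p) V, x ∈ t →
            (x.1 - (ψ x.1 / ψ a₁) • a₁ = 0 ∨ Root G (x.1 - (ψ x.1 / ψ a₁) • a₁) χ) := by
          intro x
          by_cases hx : x ∈ t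
          · rcases hroot_t x hx with hx0 | hxr
            · refine ⟨0, fun _ => Or.inl ?_⟩
              rw [hx0, map_zero, zero_div, zero_smul, sub_zero]
            · obtain ⟨h2a, h2b⟩ := hc' x hx hxr
              by_cases hc0 : x.1 - (ψ x.1 / ψ a₁) • a₁ = 0
              · exact ⟨0, fun _ => Or.inl hc0⟩
              by_cases hψx : ψ x.1 = 0
              · refine ⟨x.2, fun _ => Or.inr ?_⟩
                rw [hψx, zero_div, zero_smul, sub_zero]
                exact hxr
              by_cases hχ0 : x.2 - (x.2 b / φ₁ b) • φ₁ = 0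
              · obtain ⟨k, hk⟩ : ∃ k : ZMod p, x.2 = k • φ₁ := ⟨_, sub_eq_zero.mp hχ0⟩
                have hk0 : k ≠ 0 := by
                  intro hk0
                  rw [hk0, zero_smul] at hk
                  exact hxr.2.1 hk
                have hr1 : Root G x.1 φ₁ := by
                  have h3 := hxr.smul_right (inv_ne_zero hk0)
                  rw [hk, smul_smul, inv_mul_cancel₀ hk0, one_smul] at h3
                  exact h3
                have hr2 : Root G ((-(ψ x.1 / ψ a₁)) • a₁) φ₁ :=
                  h1'.smul_left (neg_ne_zero.mpr (div_ne_zero hψx hψa))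
                have e : x.1 - (ψ x.1 / ψ a₁) • a₁ = x.1 + (-(ψ x.1 / ψ a₁)) • a₁ := by
                  rw [neg_smul, sub_eq_add_neg]
                refine ⟨φ₁, fun _ => Or.inr ?_⟩
                rw [e]
                exact hr1.add_left hr2 (by rw [← e]; exact hc0)
              · exact ⟨_, fun _ => Or.inr
                  (Root.proj hp2 h1' hbψ hφb hψa hxr h2b h2a hc0 hχ0)⟩
          · exact ⟨0, fun h => absurd h hx⟩
        choose χ hχ using hex
        refine ih (t.map (fun x => (x.1 - (ψ x.1 / ψ a₁) • a₁, χ x))) ?_ ?_ r ?_ h0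
        · rw [Multiset.card_map]; exact ht
        · intro z hz
          obtain ⟨w, hw, rfl⟩ := Multiset.mem_map.mp hz
          exact hχ w hw
        · rw [Multiset.map_map]
          show r = (t.map (fun x => x.1 - (ψ x.1 / ψ a₁) • a₁)).sum
          have h5 : ψ (t.map Prod.fst).sum = - ψ a₁ := by
            have h6 := h0 b ψ hbψ
            rw [hr', map_add] at h6
            exact eq_neg_of_add_eq_zero_right h6
          rw [sum_proj_left, h5, neg_div, div_self hψa, neg_smul, one_smul, sub_neg_eq_add, hr',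
            add_comm]

theorem radical_left (hp2 : p ≠ 2) {G : Subgroup (V ≃ₗ[ZMod p] V)} (hopp : HasOpp G) {r : V}
    (hr : r ∈ centers G) (h0 : ∀ b ψ, Root G b ψ → ψ r = 0) : r = 0 := by
  obtain ⟨s, hs, hsr⟩ := centers_sum hr
  exact rad_left_aux hp2 hopp (Multiset.card s) s le_rfl hs r hsr.symm h0

theorem rad_right_aux (hp2 : p ≠ 2) {G : Subgroup (V ≃ₗ[ZMod p] V)} (hopp : HasOpp G) :
    ∀ (n : ℕ) (s : Multiset (V × Dual (ZMod p) V)), Multiset.card s ≤ n →
      (∀ x ∈ s, x.2 = 0 ∨ Root G x.1 x.2) → ∀ f : Dual (ZMod p) V, f = (s.map Prod.snd).sum →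
      (∀ b ψ, Root G b ψ → f b = 0) → f = 0 := by
  intro n
  induction n with
  | zero =>
    intro s hs _ f hf _
    have h1 : s = 0 := Multiset.card_eq_zero.mp (Nat.le_zero.mp hs)
    rw [hf, h1]; simp
  | succ n ih =>
    intro s hs hroot f hf h0
    by_cases hs0 : s = 0
    · rw [hf, hs0]; simp
    obtain ⟨x₁, hx₁⟩ := Multiset.exists_mem_of_ne_zero hs0
    obtain ⟨t, rfl⟩ := Multiset.exists_cons_of_mem hx₁
    rw [Multiset.card_cons] at hs
    have ht : Multiset.card t ≤ n := Nat.le_of_succ_le_succ hs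
    have hroot_t : ∀ x ∈ t, x.2 = 0 ∨ Root G x.1 x.2 :=
      fun x hx => hroot x (Multiset.mem_cons_of_mem hx)
    obtain ⟨a₁, φ₁⟩ := x₁
    have hf' : f = φ₁ + (t.map Prod.snd).sum := by
      rw [hf, Multiset.map_cons, Multiset.sum_cons]
    rcases hroot (a₁, φ₁) (Multiset.mem_cons_self _ _) with ha | h1
    · have ha' : φ₁ = 0 := ha
      rw [ha', zero_add] at hf'
      exact ih t ht hroot_t f hf' h0
    · have h1' : Root G a₁ φ₁ := h1
      by_cases hc : ∃ x ∈ t, Root G x.1 x.2 ∧ (φ₁ x.1 ≠ 0 ∨ x.2 a₁ ≠ 0)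
      · obtain ⟨x, hx, hxr, hx2⟩ := hc
        obtain ⟨t', rfl⟩ := Multiset.exists_cons_of_mem hx
        obtain ⟨a₂, φ₂⟩ := x
        have hxr' : Root G a₂ φ₂ := hxr
        have hcomb : ∃ c, Root G c (φ₁ + φ₂) := by
          rcases hx2 with h | h
          · have h' : φ₁ a₂ ≠ 0 := h
            have hr2 : Root G a₂ ((-(φ₁ a₂)⁻¹) • φ₂) :=
              hxr'.smul_right (neg_ne_zero.mpr (inv_ne_zero h'))
            have h3 := h1'.conj hr2
            have e : φ₁ - φ₁ a₂ • (-(φ₁ a₂)⁻¹) • φ₂ = φ₁ + φ₂ := by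
              rw [smul_smul, mul_neg, mul_inv_cancel₀ h', neg_smul, one_smul, sub_neg_eq_add]
            rw [e] at h3
            exact ⟨_, h3⟩
          · have h' : φ₂ a₁ ≠ 0 := h
            have hr1 : Root G a₁ ((-(φ₂ a₁)⁻¹) • φ₁) :=
              h1'.smul_right (neg_ne_zero.mpr (inv_ne_zero h'))
            have h3 := hxr'.conj hr1
            have e : φ₂ - φ₂ a₁ • (-(φ₂ a₁)⁻¹) • φ₁ = φ₁ + φ₂ := by
              rw [smul_smul, mul_neg, mul_inv_cancel₀ h', neg_smul, one_smul, sub_neg_eq_add,
                add_comm]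
            rw [e] at h3
            exact ⟨_, h3⟩
        obtain ⟨c, hcr⟩ := hcomb
        rw [Multiset.card_cons] at ht
        refine ih ((c, φ₁ + φ₂) ::ₘ t') ?_ ?_ f ?_ h0
        · rw [Multiset.card_cons]; exact ht
        · intro z hz
          rcases Multiset.mem_cons.mp hz with h | h
          · rw [h]; exact Or.inr hcr
          · exact hroot_t z (Multiset.mem_cons_of_mem h)
        · rw [hf', Multiset.map_cons, Multiset.sum_cons, Multiset.map_cons, Multiset.sum_cons,
            add_assoc]
      · have hc' : ∀ x ∈ t, Root G x.1 x.2 → φ₁ x.1 = 0 ∧ x.2 a₁ = 0 := by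
          intro x hx hxr
          by_contra hcon
          apply hc
          refine ⟨x, hx, hxr, ?_⟩
          by_contra hcon2
          apply hcon
          constructor
          · by_contra h; exact hcon2 (Or.inl h)
          · by_contra h; exact hcon2 (Or.inr h)
        obtain ⟨b, ψ, hbψ, hψa, hφb⟩ := hopp a₁ φ₁ h1'
        have hex : ∀ x : V × Dual (ZMod p) V, ∃ c : V, x ∈ t →
            (x.2 - (x.2 b / φ₁ b) • φ₁ = 0 ∨ Root G c (x.2 - (x.2 b / φ₁ b) • φ₁)) := by
          intro x
          by_cases hx : x ∈ t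
          · rcases hroot_t x hx with hx0 | hxr
            · refine ⟨0, fun _ => Or.inl ?_⟩
              rw [hx0, LinearMap.zero_apply, zero_div, zero_smul, sub_zero]
            · obtain ⟨h2b, h2a⟩ := hc' x hx hxr
              by_cases hχ0 : x.2 - (x.2 b / φ₁ b) • φ₁ = 0
              · exact ⟨0, fun _ => Or.inl hχ0⟩
              by_cases hxb : x.2 b = 0
              · refine ⟨x.1, fun _ => Or.inr ?_⟩
                rw [hxb, zero_div, zero_smul, sub_zero]
                exact hxr
              by_cases hc0 : x.1 - (ψ x.1 / ψ a₁) • a₁ = 0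
              · obtain ⟨k, hk⟩ : ∃ k : ZMod p, x.1 = k • a₁ := ⟨_, sub_eq_zero.mp hc0⟩
                have hk0 : k ≠ 0 := by
                  intro hk0
                  rw [hk0, zero_smul] at hk
                  exact hxr.1 hk
                have hr1 : Root G a₁ x.2 := by
                  have h3 := hxr.smul_left (inv_ne_zero hk0)
                  rw [hk, smul_smul, inv_mul_cancel₀ hk0, one_smul] at h3
                  exact h3
                have hr2 : Root G a₁ ((-(x.2 b / φ₁ b)) • φ₁) :=
                  h1'.smul_right (neg_ne_zero.mpr (div_ne_zero hxb hφb))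
                have e : x.2 - (x.2 b / φ₁ b) • φ₁ = x.2 + (-(x.2 b / φ₁ b)) • φ₁ := by
                  module
                refine ⟨a₁, fun _ => Or.inr ?_⟩
                rw [e]
                exact hr1.add_right hr2 (by rw [← e]; exact hχ0)
              · exact ⟨_, fun _ => Or.inr
                  (Root.proj hp2 h1' hbψ hφb hψa hxr h2b h2a hc0 hχ0)⟩
          · exact ⟨0, fun h => absurd h hx⟩
        choose c hcc using hex
        refine ih (t.map (fun x => (c x, x.2 - (x.2 b / φ₁ b) • φ₁))) ?_ ?_ f ?_ h0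
        · rw [Multiset.card_map]; exact ht
        · intro z hz
          obtain ⟨w, hw, rfl⟩ := Multiset.mem_map.mp hz
          exact hcc w hw
        · rw [Multiset.map_map]
          show f = (t.map (fun x => x.2 - (x.2 b / φ₁ b) • φ₁)).sum
          have h5 : (t.map Prod.snd).sum b = - φ₁ b := by
            have h6 := h0 b ψ hbψ
            rw [hf', LinearMap.add_apply] at h6
            exact eq_neg_of_add_eq_zero_right h6
          rw [sum_proj_right, h5, neg_div, div_self hφb, hf']
          module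

theorem radical_right (hp2 : p ≠ 2) {G : Subgroup (V ≃ₗ[ZMod p] V)} (hopp : HasOpp G)
    {f : Dual (ZMod p) V} (hf : f ∈ axes G) (h0 : ∀ b ψ, Root G b ψ → f b = 0) : f = 0 := by
  obtain ⟨s, hs, hsf⟩ := axes_sum hf
  exact rad_right_aux hp2 hopp (Multiset.card s) s le_rfl hs f hsf.symm h0

theorem rootKer_eq_dualCoannihilator (G : Subgroup (V ≃ₗ[ZMod p] V)) :
    rootKer G = (axes G).dualCoannihilator := by
  ext v
  rw [mem_rootKer, Submodule.mem_dualCoannihilator]
  constructor
  · intro h φ hφ
    unfold axes at hφ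
    induction hφ using Submodule.span_induction with
    | mem φ hφ => obtain ⟨a, ha⟩ := hφ; exact h a φ ha
    | zero => simp
    | add x y _ _ hx hy => rw [LinearMap.add_apply, hx, hy, add_zero]
    | smul k x _ hx => rw [LinearMap.smul_apply, hx, smul_zero]
  · intro h b ψ hbψ
    exact h ψ (Submodule.subset_span ⟨b, hbψ⟩)

theorem isCompl_centers [Finite V] (hp2 : p ≠ 2) {G : Subgroup (V ≃ₗ[ZMod p] V)}
    (hopp : HasOpp G) : IsCompl (centers G) (rootKer G) := by
  haveI : Module.Finite (ZMod p) V := Module.Finite.of_finite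
  have hdisj : centers G ⊓ rootKer G = ⊥ := by
    rw [eq_bot_iff]
    intro r hr
    rw [Submodule.mem_bot]
    exact radical_left hp2 hopp hr.1 (mem_rootKer.mp hr.2)
  have hdim1 : finrank (ZMod p) (axes G) + finrank (ZMod p) (rootKer G) =
      finrank (ZMod p) V := by
    rw [rootKer_eq_dualCoannihilator]
    exact Subspace.finrank_add_finrank_dualCoannihilator_eq (axes G)
  have hdim2 : finrank (ZMod p) (axes G) ≤ finrank (ZMod p) (centers G) := by
    have hinj : Function.Injective (((centers G).subtype.dualMap).comp (axes G).subtype) := by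
      apply (injective_iff_map_eq_zero _).mpr
      intro φ hφ
      apply Subtype.ext
      show (φ : Dual (ZMod p) V) = 0
      apply radical_right hp2 hopp φ.2
      intro b ψ hbψ
      have hb : b ∈ centers G := Submodule.subset_span ⟨ψ, hbψ⟩
      have h1 := congrArg (fun F : Dual (ZMod p) (centers G) => F ⟨b, hb⟩) hφ
      simpa using h1
    have h1 := LinearMap.finrank_le_finrank_of_injective hinj
    rwa [Subspace.dual_finrank_eq] at h1
  constructor
  · exact disjoint_iff.mpr hdisj
  · rw [codisjoint_iff]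
    apply Submodule.eq_top_of_finrank_eq
    have h2 := Submodule.finrank_sup_add_finrank_inf_eq (centers G) (rootKer G)
    rw [hdisj, finrank_bot, add_zero] at h2
    have h3 := Submodule.finrank_le (centers G ⊔ rootKer G)
    omega

end Cfsg.Agent.H14.McL
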