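import Mathlib
import Cfsg.Agent.H85.McLDefs

/-!
# S5075, piece RESTR: restricting a group of transvections to an invariant complement
-/

set_option autoImplicit false

namespace Cfsg.Agent.H14.McL

open Module Cfsg.Agent.H85.McL

variable {p : ℕ} [Fact p.Prime] {V : Type*} [AddCommGroup V] [Module (ZMod p) V]

/-- The restriction of an element of `G` to a `G`-invariant submodule. -/
def restrEquiv (G : Subgroup (V ≃ₗ[ZMod p] V)) (A : Submodule (ZMod p) V)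
    (hA : ∀ g ∈ G, ∀ v ∈ A, g v ∈ A) (g : ↥G) : ↥A ≃ₗ[ZMod p] ↥A where
  toFun v := ⟨(g : V ≃ₗ[ZMod p] V) v, hA g g.2 v v.2⟩
  map_add' v w := Subtype.ext (by simp)
  map_smul' k v := Subtype.ext (by simp)
  invFun v := ⟨((g : V ≃ₗ[ZMod p] V)⁻¹) v, hA _ (G.inv_mem g.2) v v.2⟩
  left_inv v := Subtype.ext (by simp)
  right_inv v := Subtype.ext (by simp)

/-- The restriction homomorphism. -/
def restrHom (G : Subgroup (V ≃ₗ[ZMod p] V)) (A : Submodule (ZMod p) V)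
    (hA : ∀ g ∈ G, ∀ v ∈ A, g v ∈ A) : ↥G →* (↥A ≃ₗ[ZMod p] ↥A) where
  toFun := restrEquiv G A hA
  map_one' := by ext v; rfl
  map_mul' g h := by ext v; rfl

theorem root_restrict (G : Subgroup (V ≃ₗ[ZMod p] V)) (A C : Submodule (ZMod p) V)
    (π : V →ₗ[ZMod p] ↥A) (hπA : ∀ a : ↥A, π (a : V) = a) (hπC : ∀ c ∈ C, π c = 0)
    (hAC : IsCompl A C) (hA : ∀ g ∈ G, ∀ v ∈ A, g v ∈ A) (hC : ∀ g ∈ G, ∀ v ∈ C, g v = v) :
    ∃ ρ : ↥G →* (↥A ≃ₗ[ZMod p] ↥A),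
      (∀ (g : ↥G) (v : ↥A), ((ρ g v : ↥A) : V) = (g : V ≃ₗ[ZMod p] V) (v : V)) ∧
      Function.Injective ρ ∧
      (∀ (a : ↥A) (f : Dual (ZMod p) ↥A), Root ρ.range a f ↔ Root G (a : V) (f ∘ₗ π)) := by
  have hdec : ∀ x : V, ∃ a' ∈ A, ∃ c ∈ C, a' + c = x := by
    intro x
    have hx : x ∈ A ⊔ C := by rw [hAC.sup_eq_top]; exact Submodule.mem_top
    exact Submodule.mem_sup.mp hx
  have hρ : ∀ (g : ↥G) (v : ↥A),
      ((restrHom G A hA g v : ↥A) : V) = (g : V ≃ₗ[ZMod p] V) (v : V) := fun g v => rfl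
  refine ⟨restrHom G A hA, hρ, ?_, ?_⟩
  · intro g g' h
    apply Subtype.ext
    apply LinearEquiv.ext
    intro x
    obtain ⟨a', ha', c, hc, rfl⟩ := hdec x
    rw [map_add, map_add, hC g g.2 c hc, hC g' g'.2 c hc]
    have h1 := hρ g ⟨a', ha'⟩
    have h2 := hρ g' ⟨a', ha'⟩
    rw [h] at h1
    have h3 : (g : V ≃ₗ[ZMod p] V) a' = (g' : V ≃ₗ[ZMod p] V) a' := h1.symm.trans h2
    rw [h3]
  · intro a f
    have hfπ : ∀ a' (ha' : a' ∈ A), ∀ c ∈ C, (f ∘ₗ π) (a' + c) = f ⟨a', ha'⟩ := by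
      intro a' ha' c hc
      rw [LinearMap.comp_apply, map_add, hπC c hc, add_zero]
      exact congrArg f (hπA ⟨a', ha'⟩)
    constructor
    · rintro ⟨ha, hf, h0, g, ⟨g₀, rfl⟩, hgx⟩
      refine ⟨?_, ?_, ?_, g₀, g₀.2, ?_⟩
      · intro h; exact ha (Subtype.ext h)
      · intro h
        apply hf
        ext a'
        have h1 := congrArg (fun F : Dual (ZMod p) V => F (a' : V)) h
        simpa [hπA] using h1
      · rw [LinearMap.comp_apply, hπA]; exact h0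
      · intro x
        obtain ⟨a', ha', c, hc, rfl⟩ := hdec x
        rw [map_add, hC g₀ g₀.2 c hc, hfπ a' ha' c hc]
        have h1 := hρ g₀ ⟨a', ha'⟩
        have h2 := congrArg Subtype.val (hgx ⟨a', ha'⟩)
        rw [h1] at h2
        have h3 : (g₀ : V ≃ₗ[ZMod p] V) a' = a' + f ⟨a', ha'⟩ • (a : V) := h2
        rw [h3]
        abel
    · rintro ⟨ha, hf, h0, g₀, hg₀, hgx⟩
      refine ⟨?_, ?_, ?_, restrHom G A hA ⟨g₀, hg₀⟩, ⟨⟨g₀, hg₀⟩, rfl⟩, ?_⟩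
      · intro h; apply ha; rw [h]; rfl
      · intro h; apply hf; rw [h]; simp
      · rw [LinearMap.comp_apply, hπA] at h0; exact h0
      · intro x
        apply Subtype.ext
        rw [hρ]
        show g₀ (x : V) = ((x + f x • a : ↥A) : V)
        rw [hgx, LinearMap.comp_apply, hπA]
        rfl

end Cfsg.Agent.H14.McL
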