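import Mathlib
import Cfsg.Agent.H45.S43Defs

/-!
# S2343 team project (helper45): piece S43-FOUR (helper14)

If the involution `i` has trace `0`, then `4 ∣ k` (averaging over the four-group).
-/

set_option autoImplicit false

namespace Cfsg.Agent.H14.S43

open Matrix Cfsg.Agent.H45 Cfsg.Agent.H45.S43

universe u v

theorem four : Cfsg.Agent.H45.S43.StFour.{u, v} := by
  intro hTI G _ F _ D k R htr
  obtain ⟨g1, hg1⟩ := D.j1_conj
  obtain ⟨g2, hg2⟩ := D.j2_conj
  obtain ⟨g3, hg3⟩ := D.j12_conj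
  have hconj_sq : ∀ g : G, (g * D.i * g⁻¹) * (g * D.i * g⁻¹) = 1 := by
    intro g
    have : (g * D.i * g⁻¹) * (g * D.i * g⁻¹) = g * (D.i * D.i) * g⁻¹ := by group
    rw [this, D.i_sq, mul_one, mul_inv_cancel]
  have h11 : D.j1 * D.j1 = 1 := by rw [← hg1]; exact hconj_sq g1
  have h22 : D.j2 * D.j2 = 1 := by rw [← hg2]; exact hconj_sq g2
  have htrc : ∀ g : G, Matrix.trace (R (g * D.i * g⁻¹)) = 0 := by
    intro g
    rw [map_mul, map_mul, Matrix.trace_mul_comm, ← Matrix.mul_assoc, ← map_mul, inv_mul_cancel,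
      map_one, Matrix.one_mul, htr]
  have t1 : Matrix.trace (R D.j1) = 0 := by rw [← hg1]; exact htrc g1
  have t2 : Matrix.trace (R D.j2) = 0 := by rw [← hg2]; exact htrc g2
  have t3 : Matrix.trace (R D.j1 * R D.j2) = 0 := by rw [← map_mul, ← hg3]; exact htrc g3
  have haa : R D.j1 * R D.j1 = 1 := by rw [← map_mul, h11, map_one]
  have hbb : R D.j2 * R D.j2 = 1 := by rw [← map_mul, h22, map_one]
  have hab : R D.j1 * R D.j2 = R D.j2 * R D.j1 := by rw [← map_mul, ← map_mul, D.j_comm]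
  generalize R D.j1 = a at t1 t3 haa hab
  generalize R D.j2 = b at t2 t3 hbb hab
  have haS : a * (1 + a + b + a * b) = 1 + a + b + a * b := by
    rw [mul_add, mul_add, mul_add, mul_one, haa, ← mul_assoc, haa, one_mul]
    abel
  have hbS : b * (1 + a + b + a * b) = 1 + a + b + a * b := by
    rw [mul_add, mul_add, mul_add, mul_one, hbb, ← mul_assoc, ← hab, mul_assoc a b b, hbb, mul_one]
    abel
  have hSS : (1 + a + b + a * b) * (1 + a + b + a * b) = (4 : ℂ) • (1 + a + b + a * b) := by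
    conv_lhs => rw [add_mul, add_mul, add_mul, one_mul, mul_assoc a b, hbS, haS]
    rw [show (4 : ℂ) = 1 + 1 + 1 + 1 by norm_num, add_smul, add_smul, add_smul, one_smul]
  have hPP : ((1 / 4 : ℂ) • (1 + a + b + a * b)) * ((1 / 4 : ℂ) • (1 + a + b + a * b)) =
      (1 / 4 : ℂ) • (1 + a + b + a * b) := by
    rw [smul_mul_smul_comm, hSS, smul_smul]
    norm_num
  obtain ⟨n, hn⟩ := hTI _ hPP
  refine ⟨n, ?_⟩
  rw [Matrix.trace_smul, Matrix.trace_add, Matrix.trace_add, Matrix.trace_add, Matrix.trace_one,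
    t1, t2, t3, Fintype.card_fin, smul_eq_mul] at hn
  linear_combination 4 * hn

example : Cfsg.Agent.H45.S43.StFour.{u, v} := four

end Cfsg.Agent.H14.S43
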