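import Mathlib
import Cfsg.Agent.H45.S43Defs

/-!
# S2343 team project (helper45): piece S43-TRSUM (helper14)

If no character of `A` trivial on `Z` occurs, then `q (q - 1) ∣ k`: the `q (q - 1)` projections of
the characters non-trivial on `Z` are conjugate, hence have the same trace (a natural number), and
they sum to `1`.
-/

set_option autoImplicit false

namespace Cfsg.Agent.H14.S43

open Matrix Cfsg.Agent.H45 Cfsg.Agent.H45.S43

universe u v

theorem trSum : Cfsg.Agent.H45.S43.StTrSum.{u, v} := by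
  intro hOrb hTI G _ F _ _ D ψ hψ k R h0
  classical
  have hq : ((Fintype.card F : ℕ) : ℂ) ≠ 0 := by
    exact_mod_cast Fintype.card_ne_zero
  have hu := D.uA_add
  obtain ⟨r, hr⟩ := hTI (lsIdem ψ R D.uA ![0, 1]) (lsIdem_mul_self ψ R D.uA hq hu _)
  refine ⟨r, ?_⟩
  have htr : ∀ l : Fin 2 → F,
      Matrix.trace (lsIdem ψ R D.uA l) = if l 1 = 0 then 0 else (r : ℂ) := by
    intro l
    split_ifs with hl
    · rw [h0 l hl, Matrix.trace_zero]
    · obtain ⟨g, hg⟩ := hOrb D ψ R l ![0, 1] hl (by simp)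
      rw [← hr, ← hg, Matrix.trace_mul_comm, ← Matrix.mul_assoc, ← map_mul, inv_mul_cancel,
        map_one, Matrix.one_mul]
  have h1 : (k : ℂ) = Matrix.trace (1 : Matrix (Fin k) (Fin k) ℂ) := by
    rw [Matrix.trace_one, Fintype.card_fin]
  rw [h1, ← sum_lsIdem ψ R D.uA hψ hq hu, Matrix.trace_sum, Finset.sum_congr rfl (fun l _ => htr l),
    ← Equiv.sum_comp (finTwoArrowEquiv F).symm, Fintype.sum_prod_type]
  have h3 : ∀ x y : F, (if (finTwoArrowEquiv F).symm (x, y) 1 = 0 then (0 : ℂ) else (r : ℂ)) =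
      (r : ℂ) - (if y = 0 then (r : ℂ) else 0) := by
    intro x y
    have : (finTwoArrowEquiv F).symm (x, y) 1 = y := rfl
    rw [this]
    split_ifs <;> simp
  simp only [h3, Finset.sum_sub_distrib, Finset.sum_const, Finset.card_univ, Finset.sum_ite_eq',
    Finset.mem_univ, if_true, nsmul_eq_mul]
  ring

example : Cfsg.Agent.H45.S43.StTrSum.{u, v} := trSum

end Cfsg.Agent.H14.S43
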