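import Mathlib
import Cfsg.Agent.H45.S43Defs

/-!
# S2343 team project (helper45): piece S43-TRI (helper14)

If no character of `A` trivial on `Z` occurs, the involution `i` has trace `0`.
-/

set_option autoImplicit false

namespace Cfsg.Agent.H14.S43

open Matrix Cfsg.Agent.H45 Cfsg.Agent.H45.S43

universe u v

theorem tri : Cfsg.Agent.H45.S43.StTri.{u, v} := by
  intro G _ F _ _ D ψ hψ hcard k R h0
  classical
  have hq : ((Fintype.card F : ℕ) : ℂ) ≠ 0 := by
    exact_mod_cast Fintype.card_ne_zero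
  have hu := D.uA_add
  have h2 : (2 : F) ≠ 0 := by
    apply Ring.two_ne_zero
    intro hc
    have := (FiniteField.even_card_iff_char_two (F := F)).mp hc
    omega
  have hsum : R D.i = ∑ l : Fin 2 → F, R D.i * lsIdem ψ R D.uA l := by
    rw [← Matrix.mul_sum, sum_lsIdem ψ R D.uA hψ hq hu, Matrix.mul_one]
  rw [hsum, Matrix.trace_sum]
  refine Finset.sum_eq_zero (fun l _ => ?_)
  by_cases hl : l 1 = 0
  · rw [h0 l hl, Matrix.mul_zero, Matrix.trace_zero]
  · let σ : (Fin 2 → F) ≃ (Fin 2 → F) :=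
      { toFun := fun a => ![a 0, -a 1]
        invFun := fun a => ![a 0, -a 1]
        left_inv := by intro a; ext j; fin_cases j <;> simp
        right_inv := by intro a; ext j; fin_cases j <;> simp }
    have hconj : ∀ a, D.i * D.uA a * D.i⁻¹ = D.uA (σ a) := by
      intro a
      unfold ReeRel.uA
      rw [D.i_conj, mul_assoc, mul_inv_cancel, mul_one]
      rfl
    have hdual : ∀ a, l ⬝ᵥ a = (![l 0, -l 1] : Fin 2 → F) ⬝ᵥ σ a := by
      intro a
      simp [σ, dotProduct, Fin.sum_univ_two]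
    have hc := lsIdem_conj ψ R D.uA D.i σ l ![l 0, -l 1] hconj hdual
    have hne : l ≠ ![l 0, -l 1] := by
      intro h
      have h1 := congrFun h 1
      simp only [Matrix.cons_val_one, Matrix.cons_val_fin_one] at h1
      apply hl
      have : (2 : F) * l 1 = 0 := by linear_combination h1
      exact (mul_eq_zero.mp this).resolve_left h2
    have hcomm : R D.i * lsIdem ψ R D.uA l = lsIdem ψ R D.uA ![l 0, -l 1] * R D.i := by
      rw [← hc, Matrix.mul_assoc, ← map_mul, inv_mul_cancel, map_one, Matrix.mul_one]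
    have hz : lsIdem ψ R D.uA l * lsIdem ψ R D.uA ![l 0, -l 1] = 0 :=
      lsIdem_mul_of_ne ψ R D.uA hψ hu _ _ (Ne.symm hne)
    calc Matrix.trace (R D.i * lsIdem ψ R D.uA l)
        = Matrix.trace (R D.i * (lsIdem ψ R D.uA l * lsIdem ψ R D.uA l)) := by
          rw [lsIdem_mul_self ψ R D.uA hq hu]
      _ = Matrix.trace ((R D.i * lsIdem ψ R D.uA l) * lsIdem ψ R D.uA l) := by
          rw [Matrix.mul_assoc]
      _ = Matrix.trace ((lsIdem ψ R D.uA ![l 0, -l 1] * R D.i) * lsIdem ψ R D.uA l) := by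
          rw [hcomm]
      _ = Matrix.trace (lsIdem ψ R D.uA l * (lsIdem ψ R D.uA ![l 0, -l 1] * R D.i)) := by
          rw [Matrix.trace_mul_comm]
      _ = 0 := by
          rw [← Matrix.mul_assoc, hz, Matrix.zero_mul, Matrix.trace_zero]

example : Cfsg.Agent.H45.S43.StTri.{u, v} := tri

end Cfsg.Agent.H14.S43
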