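import Mathlib
import Cfsg.Agent.H88.StUW

/-!
# S2546, piece W: the Weyl group `WU n` of type `B/C` on the positions `Fin n`
commutes with `Fin.rev`, contains `Fin.revPerm`, and has a sign character.
(Adapted from helper92's `H92/StSpW.lean` for the symplectic case.)
-/

set_option autoImplicit false

namespace Cfsg.Agent.H14.StU

open Cfsg.Agent.H88.StU

theorem pr_ne_rev (n : ℕ) (i j : Fin (n / 2)) : pr n i ≠ (pr n j).rev := by
  intro h
  have h1 := congrArg Fin.val h
  rw [Fin.val_rev, pr_val, pr_val] at h1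
  have := i.isLt
  have := j.isLt
  omega

theorem pr_inj (n : ℕ) {i j : Fin (n / 2)} (h : pr n i = pr n j) : i = j := by
  have h1 := congrArg Fin.val h
  rw [pr_val, pr_val] at h1
  exact Fin.ext h1

theorem pr_injective (n : ℕ) : Function.Injective (pr n) := fun _ _ h => pr_inj n h

theorem sref_last (n : ℕ) (i : Fin (n / 2)) (h : ¬ i.val + 1 < n / 2) :
    sref n i = Equiv.swap (pr n i) (pr n i).rev := dif_neg h

theorem sref_step (n : ℕ) (i : Fin (n / 2)) (h : i.val + 1 < n / 2) :
    sref n i = Equiv.swap (pr n i) (pr n ⟨i.val + 1, h⟩) *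
      Equiv.swap (pr n ⟨i.val + 1, h⟩).rev (pr n i).rev := dif_pos h

theorem pr_ne_succ (n : ℕ) (i : Fin (n / 2)) (h : i.val + 1 < n / 2) :
    pr n i ≠ pr n ⟨i.val + 1, h⟩ := by
  intro h'
  have h1 := congrArg Fin.val h'
  rw [pr_val, pr_val] at h1
  simp only at h1
  omega

theorem swap_apply_rev {n : ℕ} (a b x : Fin n) :
    Equiv.swap a b (Fin.rev x) = Fin.rev (Equiv.swap (Fin.rev a) (Fin.rev b) x) := by
  rw [← Fin.rev_injective.swap_apply, Fin.rev_rev, Fin.rev_rev]

theorem dswap_comm {n : ℕ} (a b : Fin n) (h1 : a ≠ b) (h2 : a ≠ b.rev) (h3 : a ≠ a.rev)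
    (h4 : b ≠ b.rev) (h5 : b ≠ a.rev) :
    Equiv.swap a b * Equiv.swap b.rev a.rev = Equiv.swap b.rev a.rev * Equiv.swap a b := by
  apply Equiv.Perm.Disjoint.commute
  apply Equiv.Perm.disjoint_swap_swap
  have h6 : b.rev ≠ a.rev := fun h' => h1 (Fin.rev_injective h').symm
  simp [h1, h2, h3, h4, h5, h6]

theorem dswap_apply_rev {n : ℕ} (a b : Fin n) (h1 : a ≠ b) (h2 : a ≠ b.rev) (h3 : a ≠ a.rev)
    (h4 : b ≠ b.rev) (h5 : b ≠ a.rev) (c : Fin n) :
    (Equiv.swap a b * Equiv.swap b.rev a.rev) c.rev =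
      ((Equiv.swap a b * Equiv.swap b.rev a.rev) c).rev := by
  have e1 : Equiv.swap b.rev a.rev c.rev = Fin.rev (Equiv.swap b a c) := by
    rw [swap_apply_rev, Fin.rev_rev, Fin.rev_rev]
  calc (Equiv.swap a b * Equiv.swap b.rev a.rev) c.rev
      = Equiv.swap a b (Equiv.swap b.rev a.rev c.rev) := rfl
    _ = Equiv.swap a b (Fin.rev (Equiv.swap b a c)) := by rw [e1]
    _ = Fin.rev (Equiv.swap a.rev b.rev (Equiv.swap b a c)) := swap_apply_rev a b _
    _ = Fin.rev ((Equiv.swap b.rev a.rev * Equiv.swap a b) c) := by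
        rw [Equiv.swap_comm a.rev b.rev, Equiv.swap_comm b a]; rfl
    _ = Fin.rev ((Equiv.swap a b * Equiv.swap b.rev a.rev) c) := by
        rw [dswap_comm a b h1 h2 h3 h4 h5]

theorem sref_apply_rev (n : ℕ) (i : Fin (n / 2)) (c : Fin n) :
    sref n i c.rev = (sref n i c).rev := by
  by_cases h : i.val + 1 < n / 2
  · rw [sref_step n i h]
    exact dswap_apply_rev _ _ (pr_ne_succ n i h) (pr_ne_rev n _ _) (pr_ne_rev n _ _)
      (pr_ne_rev n _ _) (pr_ne_rev n _ _) c
  · rw [sref_last n i h, swap_apply_rev, Fin.rev_rev, Equiv.swap_comm]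

theorem wu_rev (n : ℕ) (w : Equiv.Perm (Fin n)) (hw : w ∈ WU n) (c : Fin n) :
    w c.rev = (w c).rev := by
  have key : ∀ w ∈ WU n, ∀ c : Fin n, w c.rev = (w c).rev := by
    intro w hw
    refine Subgroup.closure_induction (p := fun w _ => ∀ c : Fin n, w c.rev = (w c).rev)
      ?_ ?_ ?_ ?_ hw
    · rintro _ ⟨i, rfl⟩ c
      exact sref_apply_rev n i c
    · intro c
      rfl
    · intro x y _ _ hx hy c
      rw [Equiv.Perm.mul_apply, hy, hx, Equiv.Perm.mul_apply]
    · intro x _ hx c
      rw [Equiv.Perm.inv_eq_iff_eq, hx]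
      congr 1
      exact (Equiv.apply_symm_apply x c).symm
  exact key w hw c

/-- The reflection `e_i ↔ f_i` lies in the Weyl group. -/
theorem tswap_mem (n : ℕ) : ∀ (d : ℕ) (i : Fin (n / 2)), i.val + d + 1 = n / 2 →
    Equiv.swap (pr n i) (pr n i).rev ∈ WU n := by
  intro d
  induction d with
  | zero =>
    intro i hi
    have h : ¬ i.val + 1 < n / 2 := by omega
    rw [← sref_last n i h]
    exact Subgroup.subset_closure ⟨i, rfl⟩
  | succ d ih =>
    intro i hi
    have h : i.val + 1 < n / 2 := by omega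
    have hs : sref n i ∈ WU n := Subgroup.subset_closure ⟨i, rfl⟩
    have hj := ih ⟨i.val + 1, h⟩ (by simp only; omega)
    have h1 : sref n i (pr n ⟨i.val + 1, h⟩) = pr n i := by
      rw [sref_step n i h, Equiv.Perm.mul_apply,
        Equiv.swap_apply_of_ne_of_ne (pr_ne_rev n _ _) (pr_ne_rev n _ _),
        Equiv.swap_apply_right]
    have h2 : sref n i (pr n ⟨i.val + 1, h⟩).rev = (pr n i).rev := by
      rw [sref_apply_rev, h1]
    have e : Equiv.swap (pr n i) (pr n i).rev =
        sref n i * Equiv.swap (pr n ⟨i.val + 1, h⟩) (pr n ⟨i.val + 1, h⟩).rev *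
          (sref n i)⁻¹ := by
      rw [← Equiv.swap_apply_apply, h1, h2]
    rw [e]
    exact mul_mem (mul_mem hs hj) (inv_mem hs)

/-- Partial products of the commuting reflections `e_i ↔ f_i`, from the outside inwards. -/
noncomputable def Rrev (n : ℕ) : ℕ → Equiv.Perm (Fin n)
  | 0 => 1
  | j + 1 => (if h : j < n / 2 then Equiv.swap (pr n ⟨j, h⟩) (pr n ⟨j, h⟩).rev else 1) *
      Rrev n j

theorem Rrev_succ (n j : ℕ) : Rrev n (j + 1) =
    (if h : j < n / 2 then Equiv.swap (pr n ⟨j, h⟩) (pr n ⟨j, h⟩).rev else 1) * Rrev n j := rfl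

theorem Rrev_mem (n j : ℕ) : Rrev n j ∈ WU n := by
  induction j with
  | zero => exact one_mem _
  | succ j ih =>
    rw [Rrev_succ]
    refine mul_mem ?_ ih
    by_cases h : j < n / 2
    · rw [dif_pos h]
      exact tswap_mem n (n / 2 - 1 - j) ⟨j, h⟩ (by simp only; omega)
    · rw [dif_neg h]
      exact one_mem _

theorem Rrev_apply (n j : ℕ) (hj : j ≤ n / 2) (c : Fin n) :
    Rrev n j c = if (c.val < j ∨ n - (c.val + 1) < j) then Fin.rev c else c := by
  induction j generalizing c with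
  | zero =>
    rw [if_neg (by omega)]
    rfl
  | succ j ih =>
    have hj' : j < n / 2 := by omega
    rw [Rrev_succ, dif_pos hj', Equiv.Perm.mul_apply, ih (by omega) c]
    have hcl := c.isLt
    by_cases hc : c.val < j ∨ n - (c.val + 1) < j
    · rw [if_pos hc, Equiv.swap_apply_of_ne_of_ne, if_pos (by omega)]
      · intro h
        have h1 := congrArg Fin.val h
        rw [Fin.val_rev, pr_val] at h1
        simp only at h1
        omega
      · intro h
        have h1 := congrArg Fin.val h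
        rw [Fin.val_rev, Fin.val_rev, pr_val] at h1
        simp only at h1
        omega
    · rw [if_neg hc]
      by_cases h1 : c.val = j
      · have hce : c = pr n ⟨j, hj'⟩ := Fin.ext (by rw [pr_val]; exact h1)
        rw [if_pos (by omega)]
        conv_lhs => rw [hce]
        rw [Equiv.swap_apply_left, ← hce]
      · by_cases h2 : n - (c.val + 1) = j
        · have hce : c = (pr n ⟨j, hj'⟩).rev :=
            Fin.ext (by rw [Fin.val_rev, pr_val]; simp only; omega)
          rw [if_pos (by omega)]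
          conv_lhs => rw [hce]
          rw [Equiv.swap_apply_right]
          conv_rhs => rw [hce]
          rw [Fin.rev_rev]
        · rw [Equiv.swap_apply_of_ne_of_ne, if_neg (by omega)]
          · intro h
            have h3 := congrArg Fin.val h
            rw [pr_val] at h3
            exact h1 h3
          · intro h
            have h3 := congrArg Fin.val h
            rw [Fin.val_rev, pr_val] at h3
            simp only at h3
            omega

theorem revPerm_mem_wu (n : ℕ) : (Fin.revPerm : Equiv.Perm (Fin n)) ∈ WU n := by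
  have h : (Fin.revPerm : Equiv.Perm (Fin n)) = Rrev n (n / 2) := by
    apply Equiv.ext
    intro c
    rw [Rrev_apply n (n / 2) le_rfl c]
    have hcl := c.isLt
    by_cases hc : c.val < n / 2 ∨ n - (c.val + 1) < n / 2
    · rw [if_pos hc]
      rfl
    · rw [if_neg hc]
      apply Fin.ext
      show (Fin.rev c).val = c.val
      rw [Fin.val_rev]
      omega
  rw [h]
  exact Rrev_mem n (n / 2)

/-- The index `i` with `c ∈ {e_i, f_i}` (junk value `0` for the middle point). -/
def pidx (n : ℕ) (hpos : 0 < n / 2) (c : Fin n) : Fin (n / 2) :=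
  if h : c.val < n / 2 then ⟨c.val, h⟩
  else if h' : n - (c.val + 1) < n / 2 then ⟨n - (c.val + 1), h'⟩ else ⟨0, hpos⟩

theorem pidx_val (n : ℕ) (hpos : 0 < n / 2) (c : Fin n) :
    (pidx n hpos c).val = if c.val < n / 2 then c.val else
      if n - (c.val + 1) < n / 2 then n - (c.val + 1) else 0 := by
  unfold pidx
  split_ifs <;> rfl

theorem pidx_pr (n : ℕ) (hpos : 0 < n / 2) (i : Fin (n / 2)) : pidx n hpos (pr n i) = i := by
  apply Fin.ext
  rw [pidx_val, pr_val, if_pos i.isLt]

theorem pidx_rev (n : ℕ) (hpos : 0 < n / 2) (c : Fin n) :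
    pidx n hpos (Fin.rev c) = pidx n hpos c := by
  apply Fin.ext
  rw [pidx_val, pidx_val, Fin.val_rev]
  have := c.isLt
  split_ifs <;> omega

theorem eq_pr_or (n : ℕ) (hpos : 0 < n / 2) (c : Fin n) (hc : Fin.rev c ≠ c) :
    c = pr n (pidx n hpos c) ∨ c = Fin.rev (pr n (pidx n hpos c)) := by
  have hcl := c.isLt
  have hne : n - (c.val + 1) ≠ c.val := by
    intro h
    apply hc
    apply Fin.ext
    rw [Fin.val_rev]
    exact h
  by_cases h : c.val < n / 2
  · left
    apply Fin.ext
    rw [pr_val, pidx_val, if_pos h]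
  · right
    apply Fin.ext
    rw [Fin.val_rev, pr_val, pidx_val, if_neg h]
    split_ifs with h' <;> omega

theorem pidx_wu (n : ℕ) (hpos : 0 < n / 2) (w : Equiv.Perm (Fin n)) (hw : w ∈ WU n)
    (c : Fin n) (hc : Fin.rev c ≠ c) :
    pidx n hpos (w c) = pidx n hpos (w (pr n (pidx n hpos c))) := by
  rcases eq_pr_or n hpos c hc with h | h
  · rw [← h]
  · conv_lhs => rw [h]
    rw [wu_rev n w hw, pidx_rev]

theorem rev_wu_pr_ne (n : ℕ) (w : Equiv.Perm (Fin n)) (hw : w ∈ WU n) (i : Fin (n / 2)) :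
    Fin.rev (w (pr n i)) ≠ w (pr n i) := by
  rw [← wu_rev n w hw]
  intro h
  exact pr_ne_rev n i i (w.injective h).symm

/-- The action of the Weyl group on the index set `Fin (n / 2)` (forgetting signs). -/
@[reducible] def wuAct (n : ℕ) (hpos : 0 < n / 2) : MulAction (WU n) (Fin (n / 2)) where
  smul w i := pidx n hpos (w.1 (pr n i))
  one_smul i := pidx_pr n hpos i
  mul_smul w1 w2 i := by
    show pidx n hpos ((w1.1 * w2.1) (pr n i)) =
      pidx n hpos (w1.1 (pr n (pidx n hpos (w2.1 (pr n i)))))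
    rw [Equiv.Perm.mul_apply, pidx_wu n hpos w1.1 w1.2 _ (rev_wu_pr_ne n w2.1 w2.2 i)]

/-- The projection of the Weyl group onto the symmetric group of the index set. -/
noncomputable def wuPi (n : ℕ) (hpos : 0 < n / 2) : WU n →* Equiv.Perm (Fin (n / 2)) :=
  @MulAction.toPermHom (WU n) (Fin (n / 2)) _ (wuAct n hpos)

theorem wuPi_apply (n : ℕ) (hpos : 0 < n / 2) (w : WU n) (i : Fin (n / 2)) :
    wuPi n hpos w i = pidx n hpos (w.1 (pr n i)) := rfl

theorem wuPi_last (n : ℕ) (hpos : 0 < n / 2) (i : Fin (n / 2)) (h : ¬ i.val + 1 < n / 2) :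
    wuPi n hpos ⟨sref n i, Subgroup.subset_closure ⟨i, rfl⟩⟩ = 1 := by
  apply Equiv.ext
  intro k
  rw [wuPi_apply]
  show pidx n hpos (sref n i (pr n k)) = k
  rw [sref_last n i h]
  by_cases hk : k = i
  · rw [hk, Equiv.swap_apply_left, pidx_rev, pidx_pr]
  · rw [Equiv.swap_apply_of_ne_of_ne (fun h' => hk (pr_inj n h')) (pr_ne_rev n _ _), pidx_pr]

theorem wuPi_step (n : ℕ) (hpos : 0 < n / 2) (i : Fin (n / 2)) (h : i.val + 1 < n / 2) :
    wuPi n hpos ⟨sref n i, Subgroup.subset_closure ⟨i, rfl⟩⟩ =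
      Equiv.swap i ⟨i.val + 1, h⟩ := by
  apply Equiv.ext
  intro k
  rw [wuPi_apply]
  show pidx n hpos (sref n i (pr n k)) = _
  rw [sref_step n i h, Equiv.Perm.mul_apply,
    Equiv.swap_apply_of_ne_of_ne (pr_ne_rev n _ _) (pr_ne_rev n _ _),
    (pr_injective n).swap_apply, pidx_pr]

theorem exists_wu_sign (n : ℕ) : ∃ ε : WU n →* ℤˣ,
    ∀ i : Fin (n / 2), ε ⟨sref n i, Subgroup.subset_closure ⟨i, rfl⟩⟩ = -1 := by
  by_cases hpos : 0 < n / 2
  · refine ⟨(Equiv.Perm.sign.comp (WU n).subtype) * (Equiv.Perm.sign.comp (wuPi n hpos)), ?_⟩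
    intro i
    rw [MonoidHom.mul_apply, MonoidHom.comp_apply, MonoidHom.comp_apply]
    by_cases h : i.val + 1 < n / 2
    · have hne : i ≠ ⟨i.val + 1, h⟩ := by
        intro h'
        have h1 := congrArg Fin.val h'
        simp only at h1
        omega
      rw [wuPi_step n hpos i h, Equiv.Perm.sign_swap hne]
      show Equiv.Perm.sign (sref n i) * -1 = -1
      rw [sref_step n i h, map_mul, Equiv.Perm.sign_swap (pr_ne_succ n i h),
        Equiv.Perm.sign_swap (fun h' => pr_ne_succ n i h (Fin.rev_injective h').symm)]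
      rfl
    · rw [wuPi_last n hpos i h, map_one, mul_one]
      show Equiv.Perm.sign (sref n i) = -1
      rw [sref_last n i h]
      exact Equiv.Perm.sign_swap (pr_ne_rev n i i)
  · exact ⟨1, fun i => absurd i.isLt (by omega)⟩

end Cfsg.Agent.H14.StU
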