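import Mathlib
import Cfsg.Agent.Lib.Lead.SylAlt.Defs

/-!
# helper14: S2221 (Sylow 2-subgroups of `A_n`) -- tools for the pieces ARITH1 and DEC2
-/

set_option autoImplicit false

namespace Cfsg.Agent.H14.SylAlt

open Equiv Cfsg.Agent.Lib.Lead.SylAlt

variable {α : Type*} [Fintype α] [DecidableEq α]

/-- An involution normalizing a Sylow 2-subgroup `T` lies in `T`. -/
theorem mem_of_normalizes (T : Subgroup (Perm α)) (hT : IsSyl2 T) (s : Perm α) (hs2 : s * s = 1)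
    (hn : ∀ g ∈ T, s * g * s⁻¹ ∈ T) : s ∈ T := by
  have hsinv : s⁻¹ = s := inv_eq_of_mul_eq_one_left hs2
  have hK : IsPGroup 2 (Subgroup.zpowers s) := by
    rintro ⟨g, hg⟩
    obtain ⟨n, rfl⟩ := Subgroup.mem_zpowers_iff.mp hg
    refine ⟨1, Subtype.ext ?_⟩
    show (s ^ n) ^ 2 ^ 1 = 1
    have h2 : s ^ (2 : ℤ) = 1 := by
      rw [zpow_ofNat, pow_two, hs2]
    rw [pow_one, ← zpow_natCast (s ^ n) 2, ← zpow_mul, mul_comm, zpow_mul]
    simp only [Nat.cast_ofNat]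
    rw [h2, one_zpow]
  have hle : Subgroup.zpowers s ≤ Subgroup.normalizer (T : Set (Perm α)) := by
    rw [Subgroup.zpowers_le, Subgroup.mem_normalizer_iff]
    intro g
    constructor
    · exact hn g
    · intro h
      have h' := hn _ h
      have e : s * (s * g * s⁻¹) * s⁻¹ = g := by
        rw [hsinv]
        calc s * (s * g * s) * s = (s * s) * g * (s * s) := by group
          _ = g := by rw [hs2, one_mul, mul_one]
      rwa [e] at h'
  have hsup : IsPGroup 2 (T ⊔ Subgroup.zpowers s : Subgroup (Perm α)) :=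
    IsPGroup.to_sup_of_normal_left' hT.1 hK hle
  have h := hT.2 _ hsup le_sup_left
  rw [← h]
  exact Subgroup.mem_sup_right (Subgroup.mem_zpowers s)

omit [Fintype α] [DecidableEq α] in
theorem bigp_moved {T : Subgroup (Perm α)} {x : α} (h : Bigp T x) : ∃ g ∈ T, g x ≠ x := by
  obtain ⟨g, hg, h1, -⟩ := h x
  exact ⟨g, hg, h1⟩

omit [Fintype α] [DecidableEq α] in
theorem bigp_not_two {T : Subgroup (Perm α)} {x : α} (h : Bigp T x) : ¬ Two T x := by
  rintro ⟨y, -, -, hall⟩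
  obtain ⟨g, hg, h1, h2⟩ := h y
  rcases hall g hg with h3 | h3
  · exact h1 h3
  · exact h2 h3

omit [Fintype α] [DecidableEq α] in
theorem two_moved {T : Subgroup (Perm α)} {x : α} (h : Two T x) : ∃ g ∈ T, g x ≠ x := by
  obtain ⟨y, hy, ⟨g, hg, hgx⟩, -⟩ := h
  exact ⟨g, hg, by rw [hgx]; exact hy⟩

omit [Fintype α] [DecidableEq α] in
/-- Each point is fixed by `T`, or has an orbit of two points, or of at least three points. -/
theorem trichotomy (T : Subgroup (Perm α)) (x : α) :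
    (∀ g ∈ T, g x = x) ∨ Two T x ∨ Bigp T x := by
  classical
  by_cases hfix : ∀ g ∈ T, g x = x
  · exact Or.inl hfix
  · right
    push_neg at hfix
    obtain ⟨g, hg, hgx⟩ := hfix
    by_cases htwo : ∀ h ∈ T, h x = x ∨ h x = g x
    · exact Or.inl ⟨g x, hgx, ⟨g, hg, rfl⟩, htwo⟩
    · right
      push_neg at htwo
      obtain ⟨h, hh, hh1, hh2⟩ := htwo
      intro y
      by_cases hy : g x = y
      · exact ⟨h, hh, hh1, by rw [← hy]; exact hh2⟩
      · exact ⟨g, hg, hgx, hy⟩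

omit [Fintype α] [DecidableEq α] in
theorem three_pts (p₁ p₂ p₃ u v : α) (h12 : p₁ ≠ p₂) (h13 : p₁ ≠ p₃) (h23 : p₂ ≠ p₃) :
    (p₁ ≠ u ∧ p₁ ≠ v) ∨ (p₂ ≠ u ∧ p₂ ≠ v) ∨ (p₃ ≠ u ∧ p₃ ≠ v) := by
  classical
  by_cases a1 : p₁ = u <;> by_cases a2 : p₁ = v <;> by_cases b1 : p₂ = u <;>
    by_cases b2 : p₂ = v <;> by_cases c1 : p₃ = u <;> by_cases c2 : p₃ = v <;>
    simp_all

omit [Fintype α] [DecidableEq α] in
/-- `Bigp` is constant on orbits. -/
theorem bigp_map {T : Subgroup (Perm α)} {x : α} (h : Bigp T x) {g : Perm α} (hg : g ∈ T) :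
    Bigp T (g x) := by
  intro y
  obtain ⟨g₁, hg₁, h1, -⟩ := h x
  obtain ⟨g₂, hg₂, h2, h3⟩ := h (g₁ x)
  have key := three_pts x (g₁ x) (g₂ x) (g x) y (Ne.symm h1) (Ne.symm h2) (Ne.symm h3)
  have e : g⁻¹ (g x) = x := by simp
  rcases key with ⟨k1, k2⟩ | ⟨k1, k2⟩ | ⟨k1, k2⟩
  · refine ⟨g⁻¹, T.inv_mem hg, ?_, ?_⟩
    · rw [e]; exact k1
    · rw [e]; exact k2
  · refine ⟨g₁ * g⁻¹, T.mul_mem hg₁ (T.inv_mem hg), ?_, ?_⟩
    · rw [Perm.mul_apply, e]; exact k1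
    · rw [Perm.mul_apply, e]; exact k2
  · refine ⟨g₂ * g⁻¹, T.mul_mem hg₂ (T.inv_mem hg), ?_, ?_⟩
    · rw [Perm.mul_apply, e]; exact k1
    · rw [Perm.mul_apply, e]; exact k2

section TwoOrbit

variable {T : Subgroup (Perm α)} {x y : α}

omit [Fintype α] [DecidableEq α] in
theorem two_partner_all (hg₀ : ∃ g ∈ T, g x = y) (hall : ∀ g ∈ T, g x = x ∨ g x = y) :
    ∀ g ∈ T, g y = x ∨ g y = y := by
  obtain ⟨g₀, hg₀T, rfl⟩ := hg₀
  intro g hg
  exact hall (g * g₀) (T.mul_mem hg hg₀T)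

omit [Fintype α] [DecidableEq α] in
theorem two_fix (hyx : y ≠ x) (hg₀ : ∃ g ∈ T, g x = y) (hall : ∀ g ∈ T, g x = x ∨ g x = y)
    {g : Perm α} (hg : g ∈ T) (hgx : g x = x) : g y = y := by
  rcases two_partner_all hg₀ hall g hg with h | h
  · exact absurd (g.injective (h.trans hgx.symm)) hyx
  · exact h

omit [Fintype α] [DecidableEq α] in
theorem two_swp (hyx : y ≠ x) (hg₀ : ∃ g ∈ T, g x = y) (hall : ∀ g ∈ T, g x = x ∨ g x = y)
    {g : Perm α} (hg : g ∈ T) (hgx : g x = y) : g y = x := by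
  rcases two_partner_all hg₀ hall g hg with h | h
  · exact h
  · exact absurd (g.injective (h.trans hgx.symm)) hyx

omit [Fintype α] [DecidableEq α] in
theorem two_partner (hyx : y ≠ x) (hg₀ : ∃ g ∈ T, g x = y) (hall : ∀ g ∈ T, g x = x ∨ g x = y) :
    Two T y := by
  refine ⟨x, Ne.symm hyx, ?_, ?_⟩
  · obtain ⟨g₀, hg₀T, hg₀x⟩ := hg₀
    exact ⟨g₀, hg₀T, two_swp hyx ⟨g₀, hg₀T, hg₀x⟩ hall hg₀T hg₀x⟩
  · intro g hg
    exact (two_partner_all hg₀ hall g hg).symm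

omit [Fintype α] in
theorem two_swap_mem (htr : HTr T) (hyx : y ≠ x) (hg₀ : ∃ g ∈ T, g x = y)
    (hall : ∀ g ∈ T, g x = x ∨ g x = y) : swap x y ∈ T := by
  obtain ⟨g₀, hg₀T, hg₀x⟩ := hg₀
  obtain ⟨y₁, hy₁, hsw⟩ := htr x ⟨g₀, hg₀T, by rw [hg₀x]; exact hyx⟩
  have h := hall _ hsw
  rw [swap_apply_left] at h
  rcases h with h | h
  · exact absurd h hy₁
  · rwa [h] at hsw

omit [Fintype α] in
theorem two_central (hyx : y ≠ x) (hg₀ : ∃ g ∈ T, g x = y)
    (hall : ∀ g ∈ T, g x = x ∨ g x = y) : ∀ g ∈ T, g * swap x y = swap x y * g := by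
  intro g hg
  have h := swap_apply_apply g x y
  rcases hall g hg with hgx | hgx
  · rw [hgx, two_fix hyx hg₀ hall hg hgx] at h
    exact (mul_inv_eq_iff_eq_mul.mp h.symm)
  · rw [hgx, two_swp hyx hg₀ hall hg hgx, swap_comm] at h
    exact (mul_inv_eq_iff_eq_mul.mp h.symm)

omit [Fintype α] in
theorem two_res (hyx : y ≠ x) (hg₀ : ∃ g ∈ T, g x = y)
    (hall : ∀ g ∈ T, g x = x ∨ g x = y) {a : Perm α} (ha : a ∈ T)
    (hfix : ∀ z, z ≠ x → z ≠ y → a z = z) : a = 1 ∨ a = swap x y := by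
  rcases hall a ha with hax | hax
  · left
    have hay := two_fix hyx hg₀ hall ha hax
    ext z
    by_cases hzx : z = x
    · rw [hzx, hax]; rfl
    · by_cases hzy : z = y
      · rw [hzy, hay]; rfl
      · rw [hfix z hzx hzy]; rfl
  · right
    have hay := two_swp hyx hg₀ hall ha hax
    ext z
    by_cases hzx : z = x
    · rw [hzx, hax, swap_apply_left]
    · by_cases hzy : z = y
      · rw [hzy, hay, swap_apply_right]
      · rw [hfix z hzx hzy, swap_apply_of_ne_of_ne hzx hzy]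

end TwoOrbit

end Cfsg.Agent.H14.SylAlt
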