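import Mathlib
import Cfsg.Agent.Lib.Lead.SylAlt.Defs
import Cfsg.Agent.H14.SylAltBase

/-!
# helper14: S2221-ARITH1 -- at most one fixed point, at most one orbit of size two, and the
number of points in big orbits
-/

set_option autoImplicit false

namespace Cfsg.Agent.H14.SylAlt

open Equiv Cfsg.Agent.Lib.Lead.SylAlt

variable {α : Type*} [Fintype α] [DecidableEq α]

/-- A Sylow 2-subgroup of `Perm α` has at most one fixed point. -/
theorem fix_unique (T : Subgroup (Perm α)) (hT : IsSyl2 T) (x y : α)
    (hx : ∀ g ∈ T, g x = x) (hy : ∀ g ∈ T, g y = y) : x = y := by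
  by_contra hne
  have hmem : swap x y ∈ T := by
    apply mem_of_normalizes T hT _ (swap_mul_self x y)
    intro g hg
    have h := swap_apply_apply g x y
    rw [hx g hg, hy g hg] at h
    have hc : g * swap x y = swap x y * g := mul_inv_eq_iff_eq_mul.mp h.symm
    have e : swap x y * g * (swap x y)⁻¹ = g := by
      rw [← hc]; group
    rw [e]; exact hg
  have h := hx _ hmem
  rw [swap_apply_left] at h
  exact hne h.symm

/-- Any two orbits of size two of a Sylow 2-subgroup of `Perm α` coincide. -/
theorem two_trans (T : Subgroup (Perm α)) (hT : IsSyl2 T) (hs : HSplit T) (htr : HTr T)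
    (x x' : α) (hx : Two T x) (hx' : Two T x') : ∃ g ∈ T, g x = x' := by
  by_contra hno
  obtain ⟨y, hyx, hg₀, hall⟩ := hx
  obtain ⟨y', hyx', hg₀', hall'⟩ := hx'
  have hx'x : x' ≠ x := fun h => hno ⟨1, T.one_mem, by rw [h]; rfl⟩
  have hx'y : x' ≠ y := by
    obtain ⟨g₀, hg₀T, hg₀x⟩ := hg₀
    exact fun h => hno ⟨g₀, hg₀T, hg₀x.trans h.symm⟩
  have hy'x : y' ≠ x := by
    obtain ⟨g₀', hg₀'T, hg₀'x'⟩ := hg₀'
    intro h
    refine hno ⟨g₀'⁻¹, T.inv_mem hg₀'T, ?_⟩
    rw [← h, ← hg₀'x']; simp
  have hy'y : y' ≠ y := by
    obtain ⟨g₀', hg₀'T, hg₀'x'⟩ := hg₀'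
    obtain ⟨g₀, hg₀T, hg₀x⟩ := hg₀
    intro h
    refine hno ⟨g₀'⁻¹ * g₀, T.mul_mem (T.inv_mem hg₀'T) hg₀T, ?_⟩
    rw [Perm.mul_apply, hg₀x, ← h, ← hg₀'x']; simp
  have hswT : swap x y ∈ T := two_swap_mem htr hyx hg₀ hall
  have hswT' : swap x' y' ∈ T := two_swap_mem htr hyx' hg₀' hall'
  -- the normalizing involution
  have hσx : (swap x x' * swap y y') x = x' := by
    rw [Perm.mul_apply, swap_apply_of_ne_of_ne (Ne.symm hyx) (Ne.symm hy'x), swap_apply_left]
  have hσy : (swap x x' * swap y y') y = y' := by
    rw [Perm.mul_apply, swap_apply_left, swap_apply_of_ne_of_ne hy'x hyx']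
  have hσx' : (swap x x' * swap y y') x' = x := by
    rw [Perm.mul_apply, swap_apply_of_ne_of_ne hx'y (Ne.symm hyx'), swap_apply_right]
  have hσy' : (swap x x' * swap y y') y' = y := by
    rw [Perm.mul_apply, swap_apply_right, swap_apply_of_ne_of_ne hyx (Ne.symm hx'y)]
  have hσfix : ∀ z, z ≠ x → z ≠ x' → z ≠ y → z ≠ y' → (swap x x' * swap y y') z = z := by
    intro z h1 h2 h3 h4
    rw [Perm.mul_apply, swap_apply_of_ne_of_ne h3 h4, swap_apply_of_ne_of_ne h1 h2]
  have hσ2 : (swap x x' * swap y y') * (swap x x' * swap y y') = 1 := by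
    ext z
    rw [Perm.mul_apply, Perm.one_apply]
    by_cases h1 : z = x
    · rw [h1, hσx, hσx']
    · by_cases h2 : z = x'
      · rw [h2, hσx', hσx]
      · by_cases h3 : z = y
        · rw [h3, hσy, hσy']
        · by_cases h4 : z = y'
          · rw [h4, hσy', hσy]
          · rw [hσfix z h1 h2 h3 h4, hσfix z h1 h2 h3 h4]
  have hc1 : (swap x x' * swap y y') * swap x y * (swap x x' * swap y y')⁻¹ = swap x' y' := by
    rw [← swap_apply_apply, hσx, hσy]
  have hc2 : (swap x x' * swap y y') * swap x' y' * (swap x x' * swap y y')⁻¹ = swap x y := by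
    rw [← swap_apply_apply, hσx', hσy']
  have hE : ∀ g ∈ T, ∀ z ∈ ({x, y} : Set α), g z ∈ ({x, y} : Set α) := by
    intro g hg z hz
    rcases hz with rfl | hz
    · exact hall g hg
    · rw [Set.mem_singleton_iff] at hz
      rw [hz]
      exact two_partner_all hg₀ hall g hg
  have hE' : ∀ g ∈ T, ∀ z ∈ ({x', y'} : Set α), g z ∈ ({x', y'} : Set α) := by
    intro g hg z hz
    rcases hz with rfl | hz
    · exact hall' g hg
    · rw [Set.mem_singleton_iff] at hz
      rw [hz]
      exact two_partner_all hg₀' hall' g hg
  have hσT : swap x x' * swap y y' ∈ T := by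
    apply mem_of_normalizes T hT _ hσ2
    intro g hg
    obtain ⟨a, ha, b, hb, hab⟩ := hs _ hE g hg
    obtain ⟨a', ha', b', hb', hab'⟩ := hs _ hE' b hb.1
    have ha1 : a = 1 ∨ a = swap x y := by
      apply two_res hyx hg₀ hall ha.1
      intro z hzx hzy
      apply ha.2 z
      rintro (h | h)
      · exact hzx h
      · exact hzy h
    have ha1' : a' = 1 ∨ a' = swap x' y' := by
      apply two_res hyx' hg₀' hall' ha'.1
      intro z hzx hzy
      apply ha'.2 z
      rintro (h | h)
      · exact hzx h
      · exact hzy h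
    have hbx : b x = x := hb.2 x (fun h => h (Or.inl rfl))
    have hby : b y = y := hb.2 y (fun h => h (Or.inr rfl))
    have hb'x' : b' x' = x' := hb'.2 x' (fun h => h (Or.inl rfl))
    have hb'y' : b' y' = y' := hb'.2 y' (fun h => h (Or.inr rfl))
    have ha'x : a' x = x := by
      apply ha'.2 x
      rintro (h | h)
      · exact hx'x h.symm
      · exact hy'x (Set.mem_singleton_iff.mp h).symm
    have ha'y : a' y = y := by
      apply ha'.2 y
      rintro (h | h)
      · exact hx'y h.symm
      · exact hy'y (Set.mem_singleton_iff.mp h).symm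
    have hb'x : b' x = x := by
      have h := congrArg (fun f : Perm α => f x) hab'
      simp only [Perm.mul_apply] at h
      rw [hbx] at h
      exact a'.injective (h.symm.trans ha'x.symm)
    have hb'y : b' y = y := by
      have h := congrArg (fun f : Perm α => f y) hab'
      simp only [Perm.mul_apply] at h
      rw [hby] at h
      exact a'.injective (h.symm.trans ha'y.symm)
    have hdisj : Perm.Disjoint (swap x x' * swap y y') b' := by
      intro z
      by_cases h1 : z = x
      · right; rw [h1]; exact hb'x
      · by_cases h2 : z = x'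
        · right; rw [h2]; exact hb'x'
        · by_cases h3 : z = y
          · right; rw [h3]; exact hb'y
          · by_cases h4 : z = y'
            · right; rw [h4]; exact hb'y'
            · left; exact hσfix z h1 h2 h3 h4
    have hcomm : (swap x x' * swap y y') * b' = b' * (swap x x' * swap y y') := hdisj.commute.eq
    have hcb : (swap x x' * swap y y') * b' * (swap x x' * swap y y')⁻¹ = b' := by
      rw [hcomm]; group
    have e : (swap x x' * swap y y') * g * (swap x x' * swap y y')⁻¹ =
        ((swap x x' * swap y y') * a * (swap x x' * swap y y')⁻¹) *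
        ((swap x x' * swap y y') * a' * (swap x x' * swap y y')⁻¹) *
        ((swap x x' * swap y y') * b' * (swap x x' * swap y y')⁻¹) := by
      rw [hab, hab']; group
    rw [e, hcb]
    refine T.mul_mem (T.mul_mem ?_ ?_) hb'.1
    · rcases ha1 with h | h
      · rw [h, mul_one, mul_inv_cancel]; exact T.one_mem
      · rw [h, hc1]; exact hswT'
    · rcases ha1' with h | h
      · rw [h, mul_one, mul_inv_cancel]; exact T.one_mem
      · rw [h, hc2]; exact hswT
  exact hno ⟨_, hσT, hσx⟩

theorem arith1 (T : Subgroup (Perm α)) (hT : IsSyl2 T) (hs : HSplit T) (htr : HTr T) (h4 : HOrb4 T) :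
    (∀ x x', Two T x → Two T x' → ∃ g ∈ T, g x = x') ∧
    ((∃ x, Two T x) ↔ (Fintype.card α % 4 = 2 ∨ Fintype.card α % 4 = 3)) ∧
    {x : α | Bigp T x}.ncard = 4 * (Fintype.card α / 4) := by
  classical
  have htt := two_trans T hT hs htr
  refine ⟨htt, ?_⟩
  -- the three kinds of points
  have h1 := Finset.card_filter_add_card_filter_not (s := (Finset.univ : Finset α))
    (fun x => Bigp T x)
  have h2 := Finset.card_filter_add_card_filter_not
    (s := (Finset.univ : Finset α).filter (fun x => ¬ Bigp T x)) (fun x => Two T x)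
  have eW : ((Finset.univ : Finset α).filter (fun x => ¬ Bigp T x)).filter (fun x => Two T x) =
      (Finset.univ : Finset α).filter (fun x => Two T x) := by
    ext z
    simp only [Finset.mem_filter, Finset.mem_univ, true_and]
    constructor
    · exact fun h => h.2
    · exact fun h => ⟨fun hb => bigp_not_two hb h, h⟩
  have eF : ((Finset.univ : Finset α).filter (fun x => ¬ Bigp T x)).filter (fun x => ¬ Two T x) =
      (Finset.univ : Finset α).filter (fun x => ∀ g ∈ T, g x = x) := by
    ext z
    simp only [Finset.mem_filter, Finset.mem_univ, true_and]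
    constructor
    · rintro ⟨hb, ht⟩
      rcases trichotomy T z with h | h | h
      · exact h
      · exact absurd h ht
      · exact absurd h hb
    · intro h
      refine ⟨fun hb => ?_, fun ht => ?_⟩
      · obtain ⟨g, hg, hgz⟩ := bigp_moved hb
        exact hgz (h g hg)
      · obtain ⟨g, hg, hgz⟩ := two_moved ht
        exact hgz (h g hg)
  rw [eW, eF] at h2
  rw [Finset.card_univ] at h1
  have hF : ((Finset.univ : Finset α).filter (fun x => ∀ g ∈ T, g x = x)).card ≤ 1 := by
    apply Finset.card_le_one.mpr
    intro a ha b hb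
    exact fix_unique T hT a b (Finset.mem_filter.mp ha).2 (Finset.mem_filter.mp hb).2
  have hW : (((Finset.univ : Finset α).filter (fun x => Two T x)).card = 0 ∧ ¬ ∃ x, Two T x) ∨
      (((Finset.univ : Finset α).filter (fun x => Two T x)).card = 2 ∧ ∃ x, Two T x) := by
    by_cases hex : ∃ x, Two T x
    · right
      refine ⟨?_, hex⟩
      obtain ⟨x, hx⟩ := hex
      have hx' := hx
      obtain ⟨y, hyx, hg₀, hall⟩ := hx
      have e : (Finset.univ : Finset α).filter (fun x => Two T x) = {x, y} := by
        ext z
        simp only [Finset.mem_filter, Finset.mem_univ, true_and, Finset.mem_insert,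
          Finset.mem_singleton]
        constructor
        · intro hz
          obtain ⟨g, hg, hgx⟩ := htt x z hx' hz
          rw [← hgx]
          exact hall g hg
        · rintro (h | h)
          · rw [h]; exact hx'
          · rw [h]; exact two_partner hyx hg₀ hall
      rw [e, Finset.card_pair (Ne.symm hyx)]
    · left
      refine ⟨?_, hex⟩
      rw [Finset.card_eq_zero, Finset.filter_eq_empty_iff]
      intro z _ hz
      exact hex ⟨z, hz⟩
  have hB : 4 ∣ ((Finset.univ : Finset α).filter (fun x => Bigp T x)).card := by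
    apply h4
    · intro g hg z hz
      exact Finset.mem_filter.mpr ⟨Finset.mem_univ _, bigp_map (Finset.mem_filter.mp hz).2 hg⟩
    · intro z hz
      exact (Finset.mem_filter.mp hz).2
  have hBn : {x : α | Bigp T x}.ncard =
      ((Finset.univ : Finset α).filter (fun x => Bigp T x)).card := by
    have e : {x : α | Bigp T x} = ↑((Finset.univ : Finset α).filter (fun x => Bigp T x)) := by
      ext z; simp
    rw [e, Set.ncard_coe_finset]
  rw [hBn]
  obtain ⟨k, hk⟩ := hB
  rcases hW with ⟨hw, hex⟩ | ⟨hw, hex⟩
  · constructor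
    · constructor
      · intro h; exact absurd h hex
      · intro h; exfalso; omega
    · omega
  · constructor
    · constructor
      · intro _; omega
      · intro _; exact hex
    · omega

end Cfsg.Agent.H14.SylAlt
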