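import Mathlib
import Cfsg.Agent.Lib.Lead.SylAlt.Defs
import Cfsg.Agent.H14.SylAltBase

/-!
# helper14: S2221-DEC2 -- an orbit of size two and two big orbits: `T ⊓ Alt` is decomposable
-/

set_option autoImplicit false

namespace Cfsg.Agent.H14.SylAlt

open Equiv Cfsg.Agent.Lib.Lead.SylAlt

variable {α : Type*} [Fintype α] [DecidableEq α]

theorem dec_two (T : Subgroup (Perm α)) (hT : IsSyl2 T) (hs : HSplit T) (htr : HTr T)
    (x₀ : α) (h0 : Two T x₀) (x₁ x₂ : α) (h₁ : Bigp T x₁) (h₂ : Bigp T x₂)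
    (h12 : ¬ ∃ g ∈ T, g x₁ = x₂) : Dec (T ⊓ alternatingGroup α) := by
  have h0' := h0
  obtain ⟨y₀, hyx, hg₀, hall⟩ := h0
  have hτT : swap x₀ y₀ ∈ T := two_swap_mem htr hyx hg₀ hall
  have hτc : ∀ g ∈ T, g * swap x₀ y₀ = swap x₀ y₀ * g := two_central hyx hg₀ hall
  have hτ2 : swap x₀ y₀ * swap x₀ y₀ = 1 := swap_mul_self x₀ y₀
  have hτsign : Perm.sign (swap x₀ y₀) = -1 := Perm.sign_swap (Ne.symm hyx)
  have hTwo_y : Two T y₀ := two_partner hyx hg₀ hall
  -- `x₀, y₀` are not in the orbit of `x₁`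
  have hx₀O : x₀ ∉ orb T x₁ := by
    rintro ⟨g, hg, hgx⟩
    have hb := bigp_map h₁ hg
    rw [hgx] at hb
    exact bigp_not_two hb h0'
  have hy₀O : y₀ ∉ orb T x₁ := by
    rintro ⟨g, hg, hgx⟩
    have hb := bigp_map h₁ hg
    rw [hgx] at hb
    exact bigp_not_two hb hTwo_y
  have hOinv : ∀ g ∈ T, ∀ z ∈ orb T x₁, g z ∈ orb T x₁ := orb_inv T x₁
  have hτres : swap x₀ y₀ ∈ res T (orb T x₁)ᶜ := by
    refine ⟨hτT, fun z hz => ?_⟩
    have hzO : z ∈ orb T x₁ := by
      by_contra h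
      exact hz h
    apply swap_apply_of_ne_of_ne
    · rintro rfl; exact hx₀O hzO
    · rintro rfl; exact hy₀O hzO
  have hτresE : swap x₀ y₀ ∈ res T (orb T x₁ ∪ {x₀, y₀}) := by
    refine ⟨hτT, fun z hz => ?_⟩
    apply swap_apply_of_ne_of_ne
    · rintro rfl; exact hz (Or.inr (Or.inl rfl))
    · rintro rfl; exact hz (Or.inr (Or.inr rfl))
  have hmono : res T (orb T x₁) ≤ res T (orb T x₁ ∪ {x₀, y₀}) :=
    fun g hg => ⟨hg.1, fun z hz => hg.2 z (fun h => hz (Or.inl h))⟩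
  have key : ∀ q, q ∈ res T (orb T x₁ ∪ {x₀, y₀}) → q ∈ res T (orb T x₁)ᶜ →
      q = 1 ∨ q = swap x₀ y₀ := by
    intro q hq1 hq2
    apply two_res hyx hg₀ hall hq1.1
    intro z hzx hzy
    by_cases hzO : z ∈ orb T x₁
    · exact hq2.2 z (fun h => h hzO)
    · apply hq1.2 z
      rintro (h | h)
      · exact hzO h
      · rcases h with h | h
        · exact hzx h
        · exact hzy h
  have hsign_ne : (-1 : ℤˣ) ≠ 1 := by decide
  have mk : ∀ (H : Subgroup (Perm α)) (q : Perm α), q ∈ H → Perm.sign q = 1 →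
      q ∈ H ⊓ alternatingGroup α :=
    fun H q h1 h2 => Subgroup.mem_inf.mpr ⟨h1, Perm.mem_alternatingGroup.mpr h2⟩
  refine ⟨res T (orb T x₁ ∪ {x₀, y₀}) ⊓ alternatingGroup α,
    res T (orb T x₁)ᶜ ⊓ alternatingGroup α, ?_, ?_, ?_, ?_, ?_, ?_, ?_⟩
  · -- S₁ ≠ ⊥
    obtain ⟨y₁, hy₁, hsw₁⟩ := htr x₁ (bigp_moved h₁)
    have hy₁O : y₁ ∈ orb T x₁ := ⟨swap x₁ y₁, hsw₁, swap_apply_left x₁ y₁⟩
    have ht₁ : swap x₁ y₁ ∈ res T (orb T x₁) := by
      refine ⟨hsw₁, fun z hz => ?_⟩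
      apply swap_apply_of_ne_of_ne
      · rintro rfl; exact hz (mem_orb_self T _)
      · rintro rfl; exact hz hy₁O
    have hmem : swap x₁ y₁ * swap x₀ y₀ ∈
        res T (orb T x₁ ∪ {x₀, y₀}) ⊓ alternatingGroup α := by
      refine mk _ _ (Subgroup.mul_mem _ (hmono ht₁) hτresE) ?_
      rw [map_mul, Perm.sign_swap (Ne.symm hy₁), hτsign]
      decide
    intro hbot
    rw [hbot, Subgroup.mem_bot] at hmem
    have hval := congrArg (fun f : Perm α => f x₁) hmem
    simp only [Perm.mul_apply, Perm.one_apply] at hval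
    have hτx₁ : swap x₀ y₀ x₁ = x₁ := by
      apply swap_apply_of_ne_of_ne
      · rintro rfl; exact hx₀O (mem_orb_self T _)
      · rintro rfl; exact hy₀O (mem_orb_self T _)
    rw [hτx₁, swap_apply_left] at hval
    exact hy₁ hval
  · -- S₂ ≠ ⊥
    obtain ⟨y₂, hy₂, hsw₂⟩ := htr x₂ (bigp_moved h₂)
    have hx₂O : x₂ ∉ orb T x₁ := fun h => h12 h
    have hy₂O : y₂ ∉ orb T x₁ := by
      intro h
      have := hOinv _ hsw₂ _ h
      rw [swap_apply_right] at this
      exact hx₂O this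
    have ht₂ : swap x₂ y₂ ∈ res T (orb T x₁)ᶜ := by
      refine ⟨hsw₂, fun z hz => ?_⟩
      have hzO : z ∈ orb T x₁ := by
        by_contra h
        exact hz h
      apply swap_apply_of_ne_of_ne
      · rintro rfl; exact hx₂O hzO
      · rintro rfl; exact hy₂O hzO
    have hmem : swap x₂ y₂ * swap x₀ y₀ ∈ res T (orb T x₁)ᶜ ⊓ alternatingGroup α := by
      refine mk _ _ (Subgroup.mul_mem _ ht₂ hτres) ?_
      rw [map_mul, Perm.sign_swap (Ne.symm hy₂), hτsign]
      decide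
    intro hbot
    rw [hbot, Subgroup.mem_bot] at hmem
    have hval := congrArg (fun f : Perm α => f x₂) hmem
    simp only [Perm.mul_apply, Perm.one_apply] at hval
    have hτx₂ : swap x₀ y₀ x₂ = x₂ := by
      apply swap_apply_of_ne_of_ne
      · rintro rfl; exact bigp_not_two h₂ h0'
      · rintro rfl; exact bigp_not_two h₂ hTwo_y
    rw [hτx₂, swap_apply_left] at hval
    exact hy₂ hval
  · -- S₁ ≤ T ⊓ Alt
    exact fun q hq => ⟨hq.1.1, hq.2⟩
  · exact fun q hq => ⟨hq.1.1, hq.2⟩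
  · -- commute
    intro q₁ hq₁ q₂ hq₂
    obtain ⟨a, ha, b, hb, hab⟩ := hs (orb T x₁) hOinv q₁ hq₁.1.1
    have hb' : b ∈ res T (orb T x₁ ∪ {x₀, y₀}) := by
      have e : b = a⁻¹ * q₁ := by rw [hab]; group
      rw [e]
      exact Subgroup.mul_mem _ (Subgroup.inv_mem _ (hmono ha)) hq₁.1
    have hbq : b * q₂ = q₂ * b := by
      rcases key b hb' hb with h | h
      · rw [h, one_mul, mul_one]
      · rw [h]; exact (hτc q₂ hq₂.1.1).symm
    have haq : a * q₂ = q₂ * a := res_comm ha hq₂.1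
    rw [hab, mul_assoc, hbq, ← mul_assoc, haq, mul_assoc]
  · -- meet
    rw [Subgroup.eq_bot_iff_forall]
    intro q hq
    rcases key q hq.1.1 hq.2.1 with h | h
    · exact h
    · exfalso
      have h1 : Perm.sign q = 1 := Perm.mem_alternatingGroup.mp hq.1.2
      rw [h, hτsign] at h1
      exact hsign_ne h1
  · -- join
    apply le_antisymm
    · exact sup_le (fun q hq => ⟨hq.1.1, hq.2⟩) (fun q hq => ⟨hq.1.1, hq.2⟩)
    · intro g hg
      obtain ⟨a, ha, b, hb, hab⟩ := hs (orb T x₁) hOinv g hg.1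
      have hg1 : Perm.sign g = 1 := Perm.mem_alternatingGroup.mp hg.2
      rw [hab, map_mul] at hg1
      rcases Int.units_eq_one_or (Perm.sign a) with h | h
      · have hb1 : Perm.sign b = 1 := by rw [h, one_mul] at hg1; exact hg1
        rw [hab]
        exact Subgroup.mul_mem_sup (mk _ _ (hmono ha) h) (mk _ _ hb hb1)
      · have hb1 : Perm.sign b = -1 := by
          rw [h] at hg1
          rcases Int.units_eq_one_or (Perm.sign b) with h' | h'
          · rw [h'] at hg1; exact absurd hg1 (by decide)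
          · exact h'
        have e : g = (a * swap x₀ y₀) * (swap x₀ y₀ * b) := by
          rw [hab]
          calc a * b = a * (swap x₀ y₀ * swap x₀ y₀) * b := by rw [hτ2, mul_one]
            _ = _ := by group
        rw [e]
        refine Subgroup.mul_mem_sup (mk _ _ (Subgroup.mul_mem _ (hmono ha) hτresE) ?_)
          (mk _ _ (Subgroup.mul_mem _ hτres hb) ?_)
        · rw [map_mul, h, hτsign]; decide
        · rw [map_mul, hb1, hτsign]; decide

end Cfsg.Agent.H14.SylAlt
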