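import Mathlib
import Cfsg.Agent.H17.TgDefs

/-!
# S1904 team project (helper17): piece TG-M2 (helper14)

Case D2 with `B` of exponent 4: `X` is special of order 64 with exactly 3 involutions, all central.
-/

set_option autoImplicit false

universe u

namespace Cfsg.Agent.H14.Tg

open Cfsg Cfsg.Agent.H17.Tg

open scoped commutatorElement

theorem m2 (hVB : StVB.{u}) (hSq : StSq.{u}) (hSelf : StSelf.{u}) (hC1 : StC1.{u})
    (hC2 : StC2.{u}) (hC3 : StC3.{u}) (hIdx2 : StIdx2.{u}) (hFrat : StFrat.{u}) : StM2.{u} := by
  intro X _ _ A hyp B hmax hnc hexp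
  have hnai : NAI A B := hmax.1
  obtain ⟨hBn, hBinv, hBab⟩ := id hnai
  obtain ⟨hV1, hV2, -, -, -, hV6⟩ := hVB X A hyp B hnai hnc
  have hself := hSelf X A hyp B hmax hnc
  have e2 : (2 : ℕ) ^ 1 = 2 := by norm_num
  have e4 : (2 : ℕ) ^ (1 + 1) = 4 := by norm_num
  -- `Ω₁(B)` is central
  have hcen1 : ∀ b ∈ B, b ^ 2 ^ 1 = 1 → b ∈ Subgroup.center X := by
    intro b hb h
    rw [e2] at h
    exact hV1 b hb h
  -- `Z ≤ B`
  have hZB : ∀ z ∈ Subgroup.center X, z ∈ B := by
    intro z hz
    exact hself z (fun b _ => (Subgroup.mem_center_iff.mp hz b).symm)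
  obtain ⟨b₀, hb₀B, hb₀Z⟩ : ∃ b ∈ B, b ∉ Subgroup.center X := by
    by_contra hcon
    push Not at hcon
    exact hnc hcon
  have hb₀4 : b₀ ^ 2 ^ (1 + 1) = 1 := by
    rw [e4]
    exact hexp b₀ hb₀B
  have hZ2 : ∀ z ∈ Subgroup.center X, z ^ 2 = 1 := by
    intro z hz
    have := hC1 X A hyp B hnai hnc 1 hcen1 ⟨b₀, hb₀B, hb₀4, hb₀Z⟩ z (hZB z hz) hz
    rwa [e2] at this
  have hb₀2 : b₀ ^ 2 ≠ 1 := fun h => hb₀Z (hV1 b₀ hb₀B h)
  have hZcard : Nat.card (Subgroup.center X) = 4 := by
    rw [← hV2]
    apply Nat.card_congr
    exact { toFun := fun z => ⟨z.1, hZB z.1 z.2, hZ2 z.1 z.2⟩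
            invFun := fun v => ⟨v.1, hV1 v.1 v.2.1 v.2.2⟩
            left_inv := fun z => rfl
            right_inv := fun v => rfl }
  -- squares are central
  have hC3' := hC3 X A hyp B hnai hnc 1 hcen1
  have hsqZ : ∀ x : X, x ^ 2 ∈ Subgroup.center X := by
    intro x
    have hx2B : x ^ 2 ∈ B := by
      apply hself
      intro b hb
      exact hC3'.2 x b hb (by rw [e4]; exact hexp b hb)
    by_cases hx4 : (x ^ 2) ^ 2 = 1
    · exact hV1 _ hx2B hx4
    · exfalso
      have hxB : x ∈ B := by
        apply hself
        intro b hb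
        exact hC2 X A hyp B hnai hnc 1 hcen1 x (x ^ 2) hx2B (by rw [e4]; exact hexp _ hx2B)
          (by rw [e2]; exact hx4) (by group) b hb (by rw [e4]; exact hexp b hb)
      apply hx4
      rw [← pow_mul]
      exact hexp x hxB
  -- commutators are central
  have hcommZ : ∀ x y : X, x * y * x⁻¹ * y⁻¹ ∈ Subgroup.center X := by
    intro x y
    have h1 : x * y * x⁻¹ * y⁻¹ = (x * y) ^ 2 * ((x⁻¹) ^ 2 * (y⁻¹) ^ 2) := by
      have hc := Subgroup.mem_center_iff.mp (hsqZ x⁻¹) y⁻¹
      calc x * y * x⁻¹ * y⁻¹ = (x * y) ^ 2 * ((y⁻¹ * (x⁻¹) ^ 2) * y⁻¹) := by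
            simp only [sq]; group
        _ = (x * y) ^ 2 * ((x⁻¹) ^ 2 * (y⁻¹) ^ 2) := by
            rw [hc, mul_assoc ((x⁻¹) ^ 2), ← sq]
    rw [h1]
    exact mul_mem (hsqZ _) (mul_mem (hsqZ _) (hsqZ _))
  have hcomm_le : commutator X ≤ Subgroup.center X := by
    rw [commutator_def, Subgroup.commutator_le]
    intro g₁ _ g₂ _
    rw [commutatorElement_def]
    exact hcommZ g₁ g₂
  have hcomm_ne : commutator X ≠ ⊥ := by
    intro hbot
    apply hb₀Z
    rw [Subgroup.mem_center_iff]
    intro g
    have hmem : ⁅g, b₀⁆ ∈ commutator X := by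
      rw [commutator_def]
      exact Subgroup.commutator_mem_commutator (Subgroup.mem_top g) (Subgroup.mem_top b₀)
    rw [hbot, Subgroup.mem_bot] at hmem
    exact commutatorElement_eq_one_iff_mul_comm.mp hmem
  have hcomm_inv : AInv A (commutator X) := by
    intro φ _ w hw
    have hchar : (commutator X).Characteristic := inferInstance
    have := (Subgroup.characteristic_iff_map_le.mp hchar) φ
    exact this (Subgroup.mem_map_of_mem φ.toMonoidHom hw)
  have hcommeq : commutator X = Subgroup.center X := by
    apply le_antisymm hcomm_le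
    intro z hz
    rcases hV6 (commutator X) hcomm_inv
      (fun w hw => ⟨hZB w (hcomm_le hw), hZ2 w (hcomm_le hw)⟩) with h | h
    · exact absurd h hcomm_ne
    · exact h z (hZB z hz) (hZ2 z hz)
  have hfrat : frattini X = Subgroup.center X := hFrat X hyp.pgrp hcommeq hsqZ
  -- the index of `B`
  have hcentB : Subgroup.centralizer {b : X | b ∈ B ∧ b ^ 2 ^ (1 + 1) = 1} = B := by
    ext c
    rw [Subgroup.mem_centralizer_iff]
    constructor
    · intro h
      apply hself
      intro b hb
      exact (h b ⟨hb, by rw [e4]; exact hexp b hb⟩).symm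
    · intro hc b hb
      exact hBab b hb.1 c hc
  have hidx_le : B.index ≤ 4 := by
    have := hC3'.1
    rwa [hcentB] at this
  have hidx_ne1 : B.index ≠ 1 := by
    intro h
    have htop : B = ⊤ := Subgroup.index_eq_one.mp h
    apply hb₀Z
    rw [Subgroup.mem_center_iff]
    intro g
    exact hBab g (by rw [htop]; trivial) b₀ hb₀B
  have hidx_ne2 : B.index ≠ 2 := fun h => hIdx2 X A hyp B hBinv h
  obtain ⟨n, hn⟩ := (IsPGroup.iff_card).mp hyp.pgrp
  have hidx_dvd : B.index ∣ 2 ^ n := hn ▸ Subgroup.index_dvd_card B
  obtain ⟨k, -, hk⟩ := (Nat.dvd_prime_pow Nat.prime_two).mp hidx_dvd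
  have hidx4 : B.index = 4 := by
    rw [hk] at hidx_le hidx_ne1 hidx_ne2 ⊢
    have hk2 : k ≤ 2 := by
      by_contra hcon
      push Not at hcon
      have : 2 ^ 3 ≤ 2 ^ k := Nat.pow_le_pow_right (by norm_num) hcon
      omega
    interval_cases k <;> simp_all
  -- the order of `B`
  let f : B →* B :=
    { toFun := fun b => b ^ 2
      map_one' := one_pow 2
      map_mul' := fun a b => by
        have hc : Commute a b := Subtype.ext (hBab a a.2 b b.2)
        exact hc.mul_pow 2 }
  have hker : Nat.card f.ker = 4 := by
    rw [← hV2]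
    apply Nat.card_congr
    exact { toFun := fun k => ⟨(k.1 : X), k.1.2, by
              have h := k.2
              rw [MonoidHom.mem_ker] at h
              have h' := congrArg (Subtype.val) h
              simpa [f] using h'⟩
            invFun := fun v => ⟨⟨v.1, v.2.1⟩, by
              rw [MonoidHom.mem_ker]
              apply Subtype.ext
              simpa [f] using v.2.2⟩
            left_inv := fun k => rfl
            right_inv := fun v => rfl }
  have hrange : Nat.card f.range = 4 := by
    rw [← hV2]
    apply Nat.card_congr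
    exact { toFun := fun r => ⟨(r.1 : X), r.1.2, by
              obtain ⟨b, hb⟩ := r.2
              have h' := congrArg (Subtype.val) hb
              have h4 := hexp b.1 b.2
              have : ((r.1 : B) : X) = (b : X) ^ 2 := by
                rw [← h']; rfl
              rw [this, ← pow_mul]
              exact h4⟩
            invFun := fun v => ⟨⟨v.1, v.2.1⟩, by
              obtain ⟨b, hbB, hb⟩ := hSq X A hyp B hnai hnc 1 b₀ hb₀B (by rw [e2]; exact hb₀2)
                v.1 v.2.1 (by rw [e2]; exact v.2.2)
              exact ⟨⟨b, hbB⟩, Subtype.ext hb⟩⟩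
            left_inv := fun r => rfl
            right_inv := fun v => rfl }
  have hBcard : Nat.card B = 16 := by
    have h1 := Subgroup.card_mul_index f.ker
    rw [Subgroup.index_ker, hker, hrange] at h1
    omega
  have hcard64 : Nat.card X = 64 := by
    have h1 := Subgroup.card_mul_index B
    rw [hBcard, hidx4] at h1
    omega
  -- involutions are central
  have hinvZ : ∀ t : X, orderOf t = 2 → t ∈ Subgroup.center X := by
    intro t ht
    have ht2 : t ^ 2 = 1 := by
      rw [← ht]
      exact pow_orderOf_eq_one t
    have htt : t * t = 1 := by rw [← sq]; exact ht2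
    by_cases htB : t ∈ B
    · exact hV1 t htB ht2
    · exfalso
      have htinv : t⁻¹ = t := inv_eq_of_mul_eq_one_left htt
      have hcomm_of : ∀ x : X, x * t ∈ Subgroup.center X → Commute x t := by
        intro x hx
        have h1 := Subgroup.mem_center_iff.mp hx t
        have h2 : t * x * t = x * t * t := by rw [← h1, mul_assoc]
        exact (mul_right_cancel h2).symm
      let E : Subgroup X :=
        { carrier := {x | x ∈ Subgroup.center X ∨ x * t ∈ Subgroup.center X}
          one_mem' := Or.inl (one_mem _)
          mul_mem' := by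
            rintro x y (hx | hx) (hy | hy)
            · exact Or.inl (mul_mem hx hy)
            · right
              rw [mul_assoc]
              exact mul_mem hx hy
            · right
              have : x * y * t = (x * t) * y := by
                rw [mul_assoc, ← Subgroup.mem_center_iff.mp hy t, ← mul_assoc]
              rw [this]
              exact mul_mem hx hy
            · left
              have h1 := Subgroup.mem_center_iff.mp hy x
              have : x * y = (y * t) * (x * t) := by
                calc x * y = x * (y * t) * t := by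
                      rw [mul_assoc, mul_assoc, htt, mul_one]
                  _ = (y * t) * x * t := by rw [h1]
                  _ = (y * t) * (x * t) := by rw [mul_assoc]
              rw [this]
              exact mul_mem hy hx
          inv_mem' := by
            rintro x (hx | hx)
            · exact Or.inl (inv_mem hx)
            · right
              have hc := hcomm_of x hx
              have : x⁻¹ * t = (x * t)⁻¹ := by
                rw [mul_inv_rev, htinv]
                exact hc.inv_left.eq
              rw [this]
              exact inv_mem hx }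
      have hE_mem : ∀ x : X, x ∈ E ↔ (x ∈ Subgroup.center X ∨ x * t ∈ Subgroup.center X) :=
        fun x => Iff.rfl
      have hZE : Subgroup.center X ≤ E := fun z hz => Or.inl hz
      have htE : t ∈ E := by
        rw [hE_mem]
        right
        rw [htt]
        exact one_mem _
      have hEexp : ∀ a ∈ E, a ^ 2 = 1 := by
        intro a ha
        rcases (hE_mem a).mp ha with h | h
        · exact hZ2 a h
        · have hc := hcomm_of a h
          have h1 := hZ2 _ h
          rw [hc.mul_pow, ht2, mul_one] at h1
          exact h1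
      have hEcommT : ∀ a ∈ E, Commute a t := by
        intro a ha
        rcases (hE_mem a).mp ha with h | h
        · exact (Subgroup.mem_center_iff.mp h t).symm
        · exact hcomm_of a h
      have hEab : ∀ a ∈ E, ∀ b ∈ E, a * b = b * a := by
        intro a ha b hb
        rcases (hE_mem a).mp ha with h | h
        · exact (Subgroup.mem_center_iff.mp h b).symm
        · rcases (hE_mem b).mp hb with h' | h'
          · exact Subgroup.mem_center_iff.mp h' a
          · -- a = (a t) t, b = (b t) t
            have hca : ∀ g : X, Commute (a * t) g := fun g => (Subgroup.mem_center_iff.mp h g).symm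
            have hcb : ∀ g : X, Commute (b * t) g := fun g => (Subgroup.mem_center_iff.mp h' g).symm
            have ea : a = (a * t) * t := by rw [mul_assoc, htt, mul_one]
            have eb : b = (b * t) * t := by rw [mul_assoc, htt, mul_one]
            have hc : Commute ((a * t) * t) ((b * t) * t) := by
              apply Commute.mul_left
              · exact hca _
              · apply Commute.mul_right
                · exact (hcb t).symm
                · exact Commute.refl t
            rw [ea, eb]
            exact hc.eq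
      have hEn : E.Normal := by
        constructor
        intro x hx g
        have : g * x * g⁻¹ = (g * x * g⁻¹ * x⁻¹) * x := by group
        rw [this]
        exact mul_mem (hZE (hcommZ g x)) hx
      have hle := hyp.rank E hEn hEab E le_rfl hEexp
      have hEq : Subgroup.center X = E :=
        Subgroup.eq_of_le_of_card_ge hZE (by rw [hZcard]; exact hle)
      exact htB (hZB t (by rw [hEq]; exact htE))
  -- the number of involutions
  have hcount : Nat.card {x : X // orderOf x = 2} = 3 := by
    have hset : {x : X | orderOf x = 2} = {v : X | v ∈ B ∧ v ^ 2 = 1} \ {1} := by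
      ext x
      simp only [Set.mem_ofPred_eq, Set.mem_sdiff, Set.mem_singleton_iff]
      constructor
      · intro hx
        have hxZ := hinvZ x hx
        refine ⟨⟨hZB x hxZ, hZ2 x hxZ⟩, ?_⟩
        rintro rfl
        rw [orderOf_one] at hx
        omega
      · rintro ⟨⟨_, hx2⟩, hx1⟩
        exact orderOf_eq_prime hx2 hx1
    have h4 : Set.ncard {v : X | v ∈ B ∧ v ^ 2 = 1} = 4 := by
      rw [← Nat.card_coe_set_eq]
      exact hV2
    have h1 : (1 : X) ∈ {v : X | v ∈ B ∧ v ^ 2 = 1} := ⟨one_mem B, one_pow 2⟩
    calc Nat.card {x : X // orderOf x = 2} = Set.ncard {x : X | orderOf x = 2} :=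
          Nat.card_coe_set_eq _
      _ = 3 := by rw [hset, Set.ncard_sdiff_singleton_of_mem h1, h4]
  exact ⟨⟨hyp.pgrp, hfrat, hcommeq⟩, hcard64, hcount, hinvZ⟩

example (hVB : StVB.{u}) (hSq : StSq.{u}) (hSelf : StSelf.{u}) (hC1 : StC1.{u})
    (hC2 : StC2.{u}) (hC3 : StC3.{u}) (hIdx2 : StIdx2.{u}) (hFrat : StFrat.{u}) :
    Cfsg.Agent.H17.Tg.StM2.{u} := m2 hVB hSq hSelf hC1 hC2 hC3 hIdx2 hFrat

end Cfsg.Agent.H14.Tg
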